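import Cfsg.Agent.H297.SK.Dich
import Cfsg.Agent.H129.TwE6Fr
import Cfsg.Agent.H129.TorusChar
import Cfsg.Agent.H293.TwExc
import Cfsg.Agent.KFacts.ChevTwoSysInst
import Cfsg.Agent.KFacts.Mult.LacedE
import Cfsg.Agent.S1054

/-!
# S3010: the dichotomy for `E₆(q)`, `q` even (helper297, (E6-B))

* `gra_E6` : `H129.TwE6Fr.gam K` is the standard graph automorphism of the system `sys`;
* `dich_E6` : `HH` (inner times diagonal), cubes are inner, the dichotomy.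
-/

set_option autoImplicit false
set_option linter.unusedSectionVars false

namespace Cfsg.Agent.H297.SK.DichE6

open CoxeterSystem Cfsg.Agent.ChevalleyStructure.CoxeterGeom Cfsg.Agent.Tits.Roots Cfsg.Agent.Tits.Core
  Cfsg.Agent.Nodes.Reps Cfsg.Agent.Nodes.BNOf Cfsg.Agent.Nodes.Coroot
open Cfsg.Lie Cfsg.Agent.ChevalleyStructure Cfsg.Agent.ChevalleyStructure.Elts Cfsg.Agent.ChevalleyStructure.NPerm
  Cfsg.Agent.ChevalleyStructure.CoxeterGeomTypes Cfsg.Agent.Nodes Cfsg.Agent.Nodes.RGDChev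
  Cfsg.Agent.KFacts.ChevTwo Cfsg.Agent.KFacts.ChevTwoInst Cfsg.Agent.KFacts.RgdChevCoord
  Cfsg.Agent.KFacts.RgdCent Cfsg.Agent.H737.SK.Gen Cfsg.Agent.H297.SK.Dich
open Cfsg.Agent.H129.TwE6Fr (gam coe_gam flip6 flip_vec flip6_apply sg_one_sq)
open Cfsg.Agent.ChevalleyStructure.TwE6Basic (sg rho)

universe u

variable {K : Type u} [Field K]

/-- the diagram symmetry -/
def sigE : Fin 6 → Fin 6 := ![5, 1, 4, 3, 2, 0]

/-- the same as a permutation -/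
def sigP : Equiv.Perm (Fin 6) := ⟨sigE, sigE, by decide, by decide⟩

theorem sigP_apply (i : Fin 6) : sigP i = sigE i := rfl

theorem flip6_eq (x : Fin 6 → ℤ) : flip6 x = fun i => x (sigE i) := by
  funext i
  fin_cases i <;> rfl

theorem gam_sq : gam K * gam K = 1 := by
  apply MulEquiv.ext
  intro g
  apply Subtype.ext
  rw [MulAut.mul_apply, coe_gam, coe_gam, sg_one_sq g.2]
  rfl

variable {W : Type*} [Group W] (cs : CoxeterSystem CoxeterMatrix.E₆ W)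

theorem hp : IsType chevE6 6 CoxeterMatrix.E₆ := RGDTwE6.hp

theorem gam_eg [CharP K 2] {x : Fin 6 → ℤ} (hx : IsRoot cs hp.isCartan x) (u : K) :
    gam K (eg hp K x u) = eg hp K (flip6 x) u := by
  obtain ⟨r, hr, rfl⟩ := (isRoot_iff hp cs x).1 hx
  have hr' : r < 72 := hr
  apply Subtype.ext
  rw [coe_gam, coe_eg, coe_eg, ev_vec hp hr, flip_vec ⟨r, hr'⟩, ev_vec hp (rho ⟨r, hr'⟩).2]
  have h1 : sg (RingHom.id K) (xG RGDTwE6.hp.inList r u) = xG RGDTwE6.hp.inList (rho ⟨r, hr'⟩).val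
    (((BpExc.EmbInst.ep ⟨r, hr'⟩ : ℤ) : K) * (RingHom.id K) u) :=
      BpExc.EmbInst.sg_ep (RingHom.id K) (⟨r, hr'⟩ : Fin 72) u
  refine h1.trans ?_
  have h2 : ((BpExc.EmbInst.ep ⟨r, hr'⟩ : ℤ) : K) = 1 := by
    have h3 : ((BpExc.EmbInst.ep ⟨r, hr'⟩ : ℤ) : K) * ((BpExc.EmbInst.ep ⟨r, hr'⟩ : ℤ) : K) = 1 := by
      rw [← Int.cast_mul, BpExc.EmbInst.eps_sq, Int.cast_one]
    rcases mul_self_eq_one_iff.1 h3 with h4 | h4
    · exact h4
    · rw [h4, CharTwo.neg_eq]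
  rw [h2, one_mul]
  rfl

theorem cart_sig : ∀ i j : Fin 6, cartanOf chevE6 6 (sigE i) (sigE j) = cartanOf chevE6 6 i j := by decide +kernel

/-- **the standard graph automorphism** -/
theorem gra_E6 [CharP K 2] : Gra cs hp.isCartan (eg hp K) (gam K) sigE where
  invol := by decide
  cart := cart_sig
  map x hx u := by rw [gam_eg cs hx, flip6_eq]

theorem gra_E6' [CharP K 2] : Gra cs hp.isCartan (eg hp K) (gam K) sigP := gra_E6 cs

variable [Finite K]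

theorem center_E6 : Subgroup.center ↥(chevE6.group K) = ⊥ := by
  obtain ⟨hs, hna⟩ := Cfsg.Agent.S1054.result (F := K) chevE6 (by simp)
  rcases (inferInstance : (Subgroup.center ↥(chevE6.group K)).Normal).eq_bot_or_eq_top with h | h
  · exact h
  · exfalso
    apply hna
    refine ⟨⟨fun a b => ?_⟩⟩
    have : b ∈ Subgroup.center ↥(chevE6.group K) := by rw [h]; exact Subgroup.mem_top b
    rw [Subgroup.mem_center_iff] at this
    exact this a

theorem noCent_E6 [CharP K 2] : NoCent cs hp.isCartan (TT chevE6 K) (XX chevE6 6 K) := by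
  have : Fact (Nat.Prime 2) := ⟨Nat.prime_two⟩
  have := finite_W hp cs
  exact noCent_of_center (rgd (K := K) hp cs 2) (G1_eq_top hp _) center_E6

theorem conn_E6 (J : Set (Fin 6)) (hJ : J.Nonempty) (hJ' : J ≠ Set.univ) :
    ∃ a ∈ J, ∃ b, b ∉ J ∧ CoxeterMatrix.E₆ a b ≠ 2 := by
  obtain ⟨i, hi, j, hj, h⟩ := KFacts.Mult.LacedE.irr_E6 J hJ (Set.nonempty_compl.2 hJ')
  exact ⟨i, hi, j, hj, h⟩

theorem sym_E6 (σ : Equiv.Perm (Fin 6)) (hσ : ∀ i j, CoxeterMatrix.E₆ (σ i) (σ j) = CoxeterMatrix.E₆ i j) :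
    σ = 1 ∨ σ = sigP := by
  by_cases h1 : σ = 1
  · exact Or.inl h1
  · exact Or.inr (Equiv.ext fun i => H293.TwFix.sym_E6 σ hσ h1 i)

/-- cubes of diagonal elements -/
theorem tor_E6 (c : Fin 6 → Kˣ) : ∃ t ∈ TT chevE6 K, ∀ i u,
    t * eg hp K (sr i) u * t⁻¹ = eg hp K (sr i) ((c i : K) ^ 3 * u) := by
  obtain ⟨t, ht, h1, -⟩ := H129.Tor.exists_diag hp (F := K) (m := 3) (B := ![![4, 3, 5, 6, 4, 2], ![3, 6, 6, 9, 6, 3],
    ![5, 6, 10, 12, 8, 4], ![6, 9, 12, 18, 12, 6], ![4, 6, 8, 12, 10, 5], ![2, 3, 4, 6, 5, 4]])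
    H129.TorusChar.invC_E6 (b := fun i => (c i : K) ^ 3)
    (fun i => pow_ne_zero _ (c i).ne_zero) (fun i => ⟨c i, rfl⟩) (by norm_num)
  have htG : t ∈ chevE6.group K := (diagonal_le_group hp.inList K) ht
  refine ⟨⟨t, htG⟩, ht, fun i u => ?_⟩
  apply Subtype.ext
  rw [Subgroup.coe_mul, Subgroup.coe_mul, Subgroup.coe_inv, coe_eg, coe_eg, ev_sr hp, ev_sr hp, h1]

variable [CharP K 2]

theorem cube_E6 {δ : MulAut ↥(chevE6.group K)} (hδ : δ ∈ HH cs hp.isCartan (eg hp K)) :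
    ∃ k, δ ^ 3 = MulAut.conj k := by
  have hW := finite_W hp cs
  exact cube (sys hp twoOK_E6 cs) (G1_eq_top hp cs) tor_E6 hδ

/-- **The dichotomy for `E₆(q)`** -/
theorem dich_E6 {b : Fin 6 → ℤ} (hb : IsRoot cs hp.isCartan b) {α : MulAut ↥(chevE6.group K)}
    (hα : ∀ z ∈ XX chevE6 6 K b, α z = z) :
    α ∈ HH cs hp.isCartan (eg hp K) ∨ α * gam K ∈ HH cs hp.isCartan (eg hp K) := by
  have hW := finite_W hp cs
  exact dich (sys hp twoOK_E6 cs) (G1_eq_top hp cs) (noCent_E6 cs) conn_E6 (gra_E6' cs) sym_E6 hb hα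

end Cfsg.Agent.H297.SK.DichE6
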