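import Cfsg.Agent.H297.SK.PB
import Cfsg.Agent.H737.SK.Gra
import Cfsg.Agent.KFacts.ChevTwoAut

/-!
# S3010: inner-diagonal automorphisms and the dichotomy for automorphisms trivial on a root group (helper297, (E6-B))

`S : Sys R e` (characteristic two, no signs), `γ` the standard graph automorphism.

* `Dg cs h e` : the diagonal automorphisms; `HH cs h e` : inner times diagonal;
* `cube` : cubes of elements of `HH` are inner if the cubes of diagonal elements are;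
* `dich` : an automorphism `α` trivial on a root group lies in `HH` or `α * γ` lies in `HH`.
-/

set_option autoImplicit false
set_option linter.unusedSectionVars false

open scoped Pointwise

namespace Cfsg.Agent.H297.SK.Dich

open CoxeterSystem Cfsg.Agent.ChevalleyStructure.CoxeterGeom Cfsg.Agent.Tits.Roots Cfsg.Agent.Tits.Core
  Cfsg.Agent.Tits.Exchange Cfsg.Agent.Nodes.Reps Cfsg.Agent.Nodes.BNOf Cfsg.Agent.Nodes.StabComb
  Cfsg.Agent.Nodes.Bruhat Cfsg.Agent.Nodes.OppDec Cfsg.Agent.Nodes.LeviDec Cfsg.Agent.Nodes.NormalForm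
  Cfsg.Agent.Nodes.Coroot Cfsg.Agent.Nodes.PosPair
  Cfsg.Agent.KFacts.RgdOpp Cfsg.Agent.KFacts.RgdAut Cfsg.Agent.KFacts.RgdDiag Cfsg.Agent.KFacts.RgdRigid
  Cfsg.Agent.KFacts.RgdCent Cfsg.Agent.KFacts.RgdField Cfsg.Agent.KFacts.RgdTau Cfsg.Agent.KFacts.RgdSys
  Cfsg.Agent.KFacts.RgdTI Cfsg.Agent.KFacts.RgdAutFacts Cfsg.Agent.KFacts.ChevTwo
  Cfsg.Agent.KFacts.ChevTwoAut Cfsg.Agent.H737.SK.Gen

variable {I W Y K : Type*} [Fintype I] [DecidableEq I] [Group W] [Group Y] [Field K] {M : CoxeterMatrix I}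
  {cs : CoxeterSystem M W} {A : I → I → ℤ} {h : IsCartan M A} {T : Subgroup Y} {n : I → Y}
  {X : (I → ℤ) → Subgroup Y} {e : (I → ℤ) → K → Y}

/-- the diagonal automorphisms -/
def Dg (cs : CoxeterSystem M W) (h : IsCartan M A) (e : (I → ℤ) → K → Y) : Subgroup (MulAut Y) where
  carrier := {β | ∀ x, IsRoot cs h x → ∃ c : Kˣ, ∀ u, β (e x u) = e x (c * u)}
  one_mem' x _ := ⟨1, fun u => by rw [Units.val_one, one_mul]; rfl⟩
  mul_mem' := by
    intro β γ hβ hγ x hx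
    obtain ⟨b, hb⟩ := hβ x hx
    obtain ⟨c, hc⟩ := hγ x hx
    exact ⟨b * c, fun u => by rw [MulAut.mul_apply, hc, hb, Units.val_mul, mul_assoc]⟩
  inv_mem' := by
    intro β hβ x hx
    obtain ⟨b, hb⟩ := hβ x hx
    refine ⟨b⁻¹, fun u => ?_⟩
    apply β.injective
    rw [MulAut.apply_inv_self, hb, Units.mul_inv_cancel_left]

theorem mem_Dg {β : MulAut Y} :
    β ∈ Dg cs h e ↔ ∀ x, IsRoot cs h x → ∃ c : Kˣ, ∀ u, β (e x u) = e x (c * u) := Iff.rfl

/-- inner times diagonal automorphisms -/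
def HH (cs : CoxeterSystem M W) (h : IsCartan M A) (e : (I → ℤ) → K → Y) : Subgroup (MulAut Y) :=
  (MulAut.conj : Y →* MulAut Y).range ⊔ Dg cs h e

theorem conj_mem (k : Y) : MulAut.conj k ∈ HH cs h e :=
  (le_sup_left : (MulAut.conj : Y →* MulAut Y).range ≤ HH cs h e) ⟨k, rfl⟩

theorem dg_mem {β : MulAut Y} (hβ : β ∈ Dg cs h e) : β ∈ HH cs h e :=
  (le_sup_right : Dg cs h e ≤ HH cs h e) hβ

theorem normal_inn : ((MulAut.conj : Y →* MulAut Y).range).Normal :=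
  ⟨by rintro _ ⟨k, rfl⟩ α; exact ⟨α k, (conj_aut α k).symm⟩⟩

theorem mem_HH {δ : MulAut Y} : δ ∈ HH cs h e ↔ ∃ k : Y, ∃ β ∈ Dg cs h e, δ = MulAut.conj k * β := by
  have := normal_inn (Y := Y)
  unfold HH
  rw [Subgroup.mem_sup_of_normal_left]
  constructor
  · rintro ⟨_, ⟨k, rfl⟩, β, hβ, rfl⟩
    exact ⟨k, β, hβ, rfl⟩
  · rintro ⟨k, β, hβ, rfl⟩
    exact ⟨_, ⟨k, rfl⟩, β, hβ, rfl⟩

theorem fix_of_le [Finite Y] {α : MulAut Y} {H : Subgroup Y} (hα : ∀ x ∈ H, α x ∈ H) : Fix α H := by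
  rw [fix_iff]
  refine Subgroup.eq_of_le_of_card_ge ?_ ?_
  · rintro _ ⟨y, hy, rfl⟩
    exact hα y hy
  · rw [Subgroup.card_map_of_injective (MulEquiv.injective _)]

section

variable [Finite W] [Finite Y] {R : RGD cs h 2 T n X} (S : Sys R e)

include S

theorem Dg.map_X {β : MulAut Y} (hβ : β ∈ Dg cs h e) {x : I → ℤ} (hx : IsRoot cs h x) {z : Y} (hz : z ∈ X x) :
    β z ∈ X x := by
  obtain ⟨u, rfl⟩ := (S.mem_X x hx z).1 hz
  obtain ⟨c, hc⟩ := hβ x hx
  rw [hc]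
  exact S.mem hx _

theorem Dg.map_T (hG1 : RGD.Sup X {x | IsRoot cs h x} = ⊤) {β : MulAut Y} (hβ : β ∈ Dg cs h e) {t : Y}
    (ht : t ∈ T) : β t ∈ T := by
  refine mem_T_of_norm S hG1 fun r hr => ?_
  obtain ⟨χ, hχ⟩ := S.chi t ht
  obtain ⟨c, hc⟩ := hβ r hr
  refine ⟨((χ r).toMul : Kˣ), Units.ne_zero _, fun a => ?_⟩
  have h1 := congrArg β (hχ r hr ((c⁻¹ : Kˣ) * a))
  rw [map_mul, map_mul, map_inv, hc, hc, Units.mul_inv_cancel_left] at h1
  rw [h1]
  congr 1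
  rw [mul_left_comm, Units.mul_inv_cancel_left]

theorem Dg.diag (hG1 : RGD.Sup X {x | IsRoot cs h x} = ⊤) {β : MulAut Y} (hβ : β ∈ Dg cs h e) :
    Diag T X β 1 where
  tor := fix_of_le fun _ ht => Dg.map_T S hG1 hβ ht
  pos i := fix_of_le fun _ hz => Dg.map_X S hβ (isRoot_sr cs h i) hz
  neg i := fix_of_le fun _ hz => Dg.map_X S hβ (isRoot_sr cs h i).neg hz

/-- cubes are inner -/
theorem cube (hG1 : RGD.Sup X {x | IsRoot cs h x} = ⊤)
    (htor : ∀ c : I → Kˣ, ∃ t ∈ T, ∀ i u, t * e (sr i) u * t⁻¹ = e (sr i) ((c i : K) ^ 3 * u))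
    {δ : MulAut Y} (hδ : δ ∈ HH cs h e) : ∃ k, δ ^ 3 = MulAut.conj k := by
  obtain ⟨k, β, hβ, rfl⟩ := mem_HH.1 hδ
  have h3 : ∃ t, β ^ 3 = MulAut.conj t := by
    have hc : ∀ i, ∃ c : Kˣ, ∀ u, β (e (sr i) u) = e (sr i) (c * u) := fun i => hβ _ (isRoot_sr cs h i)
    choose c hc using hc
    obtain ⟨t, ht, het⟩ := htor c
    refine ⟨t, ?_⟩
    have D : Diag T X (MulAut.conj t⁻¹ * β ^ 3) 1 := by
      have h1 : Diag T X (MulAut.conj t⁻¹) 1 := by
        obtain ⟨χ, hχ⟩ := S.chi t⁻¹ (inv_mem ht)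
        refine Dg.diag S hG1 fun x hx => ⟨((χ x).toMul : Kˣ), fun u => ?_⟩
        rw [MulAut.conj_apply]
        exact hχ x hx u
      have h2 : Diag T X (β ^ 3) 1 := Dg.diag S hG1 (pow_mem hβ 3)
      simpa using h1.mul h2
    have h4 : MulAut.conj t⁻¹ * β ^ 3 = 1 := by
      refine Diag.eq_one R hG1 D fun i z hz => ?_
      obtain ⟨u, rfl⟩ := (S.mem_X _ (isRoot_sr cs h i) z).1 hz
      have h5 : (β ^ 3) (e (sr i) u) = e (sr i) ((c i : K) ^ 3 * u) := by
        rw [pow_succ, pow_two, MulAut.mul_apply, MulAut.mul_apply, hc, hc, hc]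
        congr 1
        ring
      rw [MulAut.mul_apply, h5, ← het, MulAut.conj_apply]
      group
    rw [map_inv, inv_mul_eq_one] at h4
    exact h4.symm
  obtain ⟨t, ht⟩ := h3
  refine ⟨k * β k * β (β k) * t, ?_⟩
  have e1 : ∀ y, β * MulAut.conj y = MulAut.conj (β y) * β := by
    intro y
    rw [← conj_aut β y]
    group
  rw [map_mul, map_mul, map_mul, ← ht]
  calc (MulAut.conj k * β) ^ 3 = MulAut.conj k * (β * MulAut.conj k) * (β * MulAut.conj k) * β := by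
        simp only [pow_succ, pow_zero, one_mul, mul_assoc]
    _ = MulAut.conj k * MulAut.conj (β k) * (β * MulAut.conj (β k)) * β * β := by
        rw [e1 k]; simp only [mul_assoc]
    _ = MulAut.conj k * MulAut.conj (β k) * MulAut.conj (β (β k)) * β ^ 3 := by
        rw [e1]; simp only [pow_succ, pow_zero, one_mul, mul_assoc]

end

section

variable [Finite W] [Finite Y] [Finite K] [Nonempty I] {R : RGD cs h 2 T n X} (S : Sys R e)

include S

/-- distinct root groups intersect trivially -/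
theorem root_eq_of {a b : I → ℤ} (ha : IsRoot cs h a) (hb : IsRoot cs h b) {z : Y} (hz : z ∈ X a) (hz' : z ∈ X b)
    (hz1 : z ≠ 1) : a = b := by
  by_contra hab
  have h1 := X_inf_X R ha hb hab
  rw [Subgroup.eq_bot_iff_forall] at h1
  exact hz1 (h1 z ⟨hz, hz'⟩)

/-- a frame automorphism without diagram symmetry which is trivial on a root element of each ... is diagonal -/
theorem dg_of_diag (hG1 : RGD.Sup X {x | IsRoot cs h x} = ⊤) (hN : NoCent cs h T X)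
    (hconn : ∀ J : Set I, J.Nonempty → J ≠ Set.univ → ∃ a ∈ J, ∃ b, b ∉ J ∧ M a b ≠ 2)
    {β : MulAut Y} (D : Diag T X β 1) {a b : I → ℤ} (ha : IsRoot cs h a) (hb : IsRoot cs h b)
    (hab : ∀ u, β (e a u) = e b u) : β ∈ Dg cs h e := by
  have C := coords S hG1
  have H := coroots S hG1 hN
  obtain ⟨τ, B⟩ := exists_tau R C H hconn D fun _ _ => rfl
  have hroot : ∀ {r : I → ℤ}, IsRoot cs h r → ∃ c : K, c ≠ 0 ∧ ∀ u, β (e r u) = e r (c * τ u) := by
    intro r hr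
    obtain ⟨c, hc, e1⟩ := Tau.root R C B hr
    exact ⟨c, hc, e1⟩
  obtain ⟨c, hc, e1⟩ := hroot ha
  have hba : b = a := by
    apply root_eq_of S hb ha (z := e b 1) (S.mem hb 1)
    · rw [← hab 1, e1]
      exact S.mem ha _
    · intro h1
      have h2 := S.data.inj b hb 1 h1
      exact one_ne_zero h2
  subst hba
  have hτ : τ = 1 := by
    have e' : ∀ u, c * τ u = u := by
      intro u
      have h1 := e1 u
      rw [hab] at h1
      exact (S.data.injective ha h1).symm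
    have h1 := e' 1
    rw [map_one, mul_one] at h1
    ext u
    have h2 := e' u
    rw [h1, one_mul] at h2
    exact h2
  subst hτ
  intro x hx
  obtain ⟨c, hc, e1⟩ := hroot hx
  exact ⟨Units.mk0 c hc, e1⟩

theorem Gra.diag (hG1 : RGD.Sup X {x | IsRoot cs h x} = ⊤) {γ : MulAut Y} {σ : Equiv.Perm I}
    (hγ : Gra cs h e γ σ) : Diag T X γ σ := by
  have key : ∀ y, IsRoot cs h y → ∀ z, γ z ∈ X (fun i => y (σ i)) ↔ z ∈ X y := by
    intro y hy z
    constructor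
    · intro hz
      obtain ⟨u, hu⟩ := (S.mem_X _ (hγ.root hy) _).1 hz
      rw [← hγ.map y hy] at hu
      rw [← γ.injective hu]
      exact S.mem hy u
    · intro hz
      obtain ⟨u, rfl⟩ := (S.mem_X _ hy _).1 hz
      rw [hγ.map y hy]
      exact S.mem (hγ.root hy) u
  refine ⟨fix_of_le fun _ ht => hγ.map_T S hG1 ht, fun i z => ?_, fun i z => ?_⟩
  · have h1 := key _ (isRoot_sr cs h i) z
    rwa [sr_comp hγ.invol] at h1
  · have h1 := key _ (isRoot_sr cs h i).neg z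
    have h2 : (fun k => (-sr i : I → ℤ) (σ k)) = -sr (σ i) := by
      rw [← sr_comp hγ.invol]; rfl
    rwa [h2] at h1

/-- **The dichotomy** -/
theorem dich (hG1 : RGD.Sup X {x | IsRoot cs h x} = ⊤) (hN : NoCent cs h T X)
    (hconn : ∀ J : Set I, J.Nonempty → J ≠ Set.univ → ∃ a ∈ J, ∃ b, b ∉ J ∧ M a b ≠ 2)
    {γ : MulAut Y} {σ₀ : Equiv.Perm I} (hγ : Gra cs h e γ σ₀)
    (hsym : ∀ σ : Equiv.Perm I, (∀ i j, M (σ i) (σ j) = M i j) → σ = 1 ∨ σ = σ₀)
    {b : I → ℤ} (hb : IsRoot cs h b) {α : MulAut Y} (hα : ∀ z ∈ X b, α z = z) :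
    α ∈ HH cs h e ∨ α * γ ∈ HH cs h e := by
  have : Fact (Nat.Prime 2) := ⟨Nat.prime_two⟩
  have hG := GG_eq_top (T := T) hG1
  obtain ⟨w, hw⟩ := (S.lr hb).exists_dominant
  obtain ⟨m, hm⟩ := exists_rp cs R.nsys w
  have ha : IsRoot cs h (rep cs h w b) := hb.act w
  obtain ⟨a, hadef⟩ : ∃ a, a = rep cs h w b := ⟨_, rfl⟩
  rw [← hadef] at ha hw
  have hX : ∀ z ∈ X a, m⁻¹ * z * m ∈ X b := by
    intro z hz
    rw [hadef, ← R.conj_rp hm hb, mem_cj] at hz
    exact hz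
  have h1 : ∀ z ∈ X a, (MulAut.conj m * α * (MulAut.conj m)⁻¹) z = z := by
    intro z hz
    rw [← map_inv]
    show m * α (m⁻¹ * z * m⁻¹⁻¹) * m⁻¹ = z
    rw [inv_inv, hα _ (hX z hz)]
    group
  have hPos : RGD.Pos cs h ⊆ Ge cs h a := by
    intro x hx
    refine ⟨hx.1, ?_⟩
    have h1 : ell cs h ha x = ∑ i, x i * ell cs h ha (sr i) := by
      conv_lhs => rw [eq_sum_sr x]
      rw [map_sum]
      refine Finset.sum_congr rfl fun i _ => ?_
      rw [map_zsmul, smul_eq_mul]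
    rw [ell_apply] at h1
    rw [h1]
    exact Finset.sum_nonneg fun i _ => mul_nonneg (hx.2 i) (by rw [ell_apply]; exact hw i)
  obtain ⟨g, hg, hU, hUN, hβz, σ, D⟩ := frame_of_fix (R := R) hG
    (fun u hu z hz => (S.lr ha).comm' (RGD.Sup_mono hPos hu) hz) h1
  obtain ⟨β, hβ⟩ : ∃ β, β = MulAut.conj g * (MulAut.conj m * α * (MulAut.conj m)⁻¹) := ⟨_, rfl⟩
  rw [← hβ] at hU hUN hβz D
  have hβe : ∀ u, β (e a u) = e a u := fun u => hβz _ (S.mem ha u)
  have hαβ : α = MulAut.conj (m⁻¹ * g⁻¹) * β * MulAut.conj m := by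
    rw [hβ, map_mul, map_inv, map_inv]
    group
  rcases hsym σ (D.matrix R) with hσ | hσ
  · left
    subst hσ
    have h2 := dg_of_diag S hG1 hN hconn D ha ha hβe
    rw [hαβ]
    exact mul_mem (mul_mem (conj_mem _) (dg_mem h2)) (conj_mem _)
  · right
    subst hσ
    have D2 : Diag T X (β * γ) 1 := by
      have h3 := D.mul (Gra.diag S hG1 hγ)
      have h4 : σ * σ = 1 := Equiv.ext fun i => hγ.invol i
      rwa [h4] at h3
    have h2 : β * γ ∈ Dg cs h e := by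
      refine dg_of_diag S hG1 hN hconn D2 (hγ.root ha) ha fun u => ?_
      rw [MulAut.mul_apply, hγ.map _ (hγ.root ha)]
      have h5 : (fun i => (fun k => a (σ k)) (σ i)) = a := by
        funext i
        show a (σ (σ i)) = a i
        rw [hγ.invol]
      rw [h5, hβe]
    have h6 : α * γ = MulAut.conj (m⁻¹ * g⁻¹) * (β * γ) * MulAut.conj (γ⁻¹ m) := by
      rw [hαβ, ← conj_aut γ⁻¹ m, inv_inv]
      group
    rw [h6]
    exact mul_mem (mul_mem (conj_mem _) (dg_mem h2)) (conj_mem _)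

end

end Cfsg.Agent.H297.SK.Dich
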