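import Cfsg.Agent.H282.SK.Good
import Cfsg.Agent.KFacts.RgdVJ
import Cfsg.Agent.KFacts.RgdAutFacts

/-!
# S3010 (Sidki pairs): the opposite trick (helper297)

* `le_U` : a `p`-subgroup of `P_J` normalised by the root groups of `J` lies in `U`;
* `good_opp` : `v` with `C(v) ≤ P_J`, `X_a ≤ C(v)` for the roots `a` of `J`, `v^-` the conjugate of `v` by an element
  over the longest element of `W`: then `Good v` (with `x = v v^-`).
-/

set_option autoImplicit false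
set_option linter.unusedSectionVars false

namespace Cfsg.Agent.H297.SK.Opp

open CoxeterSystem Cfsg.Agent.ChevalleyStructure.CoxeterGeom Cfsg.Agent.Tits.Roots Cfsg.Agent.Tits.Core
  Cfsg.Agent.Tits.RootComb Cfsg.Agent.Tits.Exchange Cfsg.Agent.Nodes.Reps Cfsg.Agent.Nodes.BNOf
  Cfsg.Agent.Nodes.StabComb Cfsg.Agent.Nodes.Bruhat Cfsg.Agent.Nodes.OppDec Cfsg.Agent.Nodes.LeviDec
  Cfsg.Agent.Nodes.NormX Cfsg.Agent.Nodes.Coroot Cfsg.Agent.KFacts.RgdAutFacts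
open Cfsg.Agent.H282.SK

variable {I W Y : Type*} [Fintype I] [DecidableEq I] [Group W] [Group Y] {M : CoxeterMatrix I}
  {cs : CoxeterSystem M W} {A : I → I → ℤ} {h : IsCartan M A} {p : ℕ} {T : Subgroup Y} {n : I → Y}
  {X : (I → ℤ) → Subgroup Y}

theorem le_normalizer_of_conj {Z : Type*} [Group Z] {H N : Subgroup Z} (hn : ∀ g ∈ H, ∀ z ∈ N, g * z * g⁻¹ ∈ N) :
    H ≤ Subgroup.normalizer (N : Set Z) := by
  intro g hg
  rw [Subgroup.mem_normalizer_iff]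
  intro z
  refine ⟨fun hz => hn g hg z hz, fun hz => ?_⟩
  have h1 := hn g⁻¹ (inv_mem hg) _ hz
  have h2 : g⁻¹ * (g * z * g⁻¹) * g⁻¹⁻¹ = z := by group
  rwa [h2] at h1

section

variable (R : RGD cs h p T n X) [Finite W] [Finite Y] [Fact p.Prime] (hG : GG cs h T X = ⊤)

include R hG

/-- A `p`-subgroup of `P_J` normalised by the root groups of `J` lies in `U`. -/
theorem le_U {J : Set I} {N : Subgroup Y} (hN : IsPGroup p N) (hNP : N ≤ PJ cs h T X J)
    (hn : ∀ x ∈ RootsJ cs h J, ∀ g ∈ X x, ∀ z ∈ N, g * z * g⁻¹ ∈ N) : N ≤ RGD.Sup X (RGD.Pos cs h) := by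
  obtain ⟨S, hS⟩ := exists_sylow R hG
  have hV : IsPGroup p (VJ cs h X J) := R.isPGroup_of_pos (S := NotJ cs h J) fun _ hx => ⟨hx.1, hx.2.1⟩
  have hNV : N ≤ Subgroup.normalizer (VJ cs h X J : Set Y) := hNP.trans (PJ_le_normalizer_VJ R J)
  have hM : IsPGroup p (N ⊔ VJ cs h X J : Subgroup Y) := hN.to_sup_of_normal_right' hV hNV
  have hUJ : UJ cs h X J ≤ Subgroup.normalizer (N : Set Y) :=
    RGD.Sup_le fun x hx => le_normalizer_of_conj fun g hg z hz => hn x (PosJ_subset J hx) g hg z hz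
  have hUJ' : UJ cs h X J ≤ Subgroup.normalizer (VJ cs h X J : Set Y) :=
    le_trans (RGD.Sup_le fun x hx => le_trans (X_le_LJ (PosJ_subset J hx)) LJ_le_PJ) (PJ_le_normalizer_VJ R J)
  have hUM : RGD.Sup X (RGD.Pos cs h) ≤ Subgroup.normalizer ((N ⊔ VJ cs h X J : Subgroup Y) : Set Y) := by
    intro u hu
    obtain ⟨a, ha, v, hv, rfl⟩ := (mem_U_iff R (J := J)).1 hu
    refine mul_mem ?_ (Subgroup.le_normalizer (Subgroup.mem_sup_right hv))
    rw [mem_normalizer_iff_cj]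
    have h1 := mem_normalizer_iff_cj.1 (hUJ ha)
    have h2 := mem_normalizer_iff_cj.1 (hUJ' ha)
    unfold cj at h1 h2 ⊢
    rw [Subgroup.map_sup, h1, h2]
  have hU : IsPGroup p (RGD.Sup X (RGD.Pos cs h)) := R.isPGroup_Upos
  have h1 : IsPGroup p ((N ⊔ VJ cs h X J) ⊔ RGD.Sup X (RGD.Pos cs h) : Subgroup Y) :=
    hM.to_sup_of_normal_left' hU hUM
  have h2 : ((N ⊔ VJ cs h X J) ⊔ RGD.Sup X (RGD.Pos cs h) : Subgroup Y) = S :=
    S.is_maximal' h1 (by rw [hS]; exact le_sup_right)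
  rw [← hS, ← h2]
  exact le_sup_left.trans le_sup_left

/-- **Triviality of the `p`-core by the opposite trick.** -/
theorem eq_bot_of_opp {J : Set I} {N : Subgroup Y} (hN : IsPGroup p N) {n0 : Y} {w : W} (hn0 : Rp cs R.nsys w n0)
    (hw : ∀ x, IsRoot cs h x → 0 ≤ x → rep cs h w x ≤ 0) (hwJ : ∀ x ∈ RootsJ cs h J, rep cs h w x ∈ RootsJ cs h J)
    (hNP : N ≤ PJ cs h T X J) (hNP' : ∀ z ∈ N, n0 * z * n0⁻¹ ∈ PJ cs h T X J)
    (hn : ∀ x ∈ RootsJ cs h J, ∀ g ∈ X x, ∀ z ∈ N, g * z * g⁻¹ ∈ N) : N = ⊥ := by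
  have h1 := le_U R hG hN hNP hn
  have h2 : cj n0 N ≤ RGD.Sup X (RGD.Pos cs h) := by
    refine le_U R hG (J := J) (hN.map _) ?_ ?_
    · rintro _ ⟨z, hz, rfl⟩
      exact hNP' z hz
    · rintro x hx g hg _ ⟨z, hz, rfl⟩
      rw [mem_cj]
      -- `X x = n0 X (w⁻¹ x) n0⁻¹`
      have h3 : n0⁻¹ * g * n0 ∈ X (rep cs h w⁻¹ x) := R.conj_mem' hn0 hx.1 hg
      have h4 : rep cs h w⁻¹ x ∈ RootsJ cs h J := by
        have : Function.Surjective (fun y : RootsJ cs h J => (⟨rep cs h w y, hwJ y y.2⟩ : RootsJ cs h J)) := by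
          have hfin : Finite (RootsJ cs h J) := by
            have : Finite {x // IsRoot cs h x} := (RGD.finite_roots (cs := cs) (h := h)).to_subtype
            exact Finite.of_injective (fun y : RootsJ cs h J => (⟨y.1, y.2.1⟩ : {x // IsRoot cs h x}))
              fun a b hab => Subtype.ext (congrArg (fun z : {x // IsRoot cs h x} => z.1) hab)
          refine Finite.injective_iff_surjective.1 fun a b hab => Subtype.ext ?_
          have h5 : rep cs h w (a : I → ℤ) = rep cs h w (b : I → ℤ) := congrArg Subtype.val hab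
          have h6 := congrArg (rep cs h w⁻¹) h5
          rwa [rep_inv_apply, rep_inv_apply] at h6
        obtain ⟨y, hy⟩ := this ⟨x, hx⟩
        have h5 : rep cs h w (y : I → ℤ) = x := congrArg Subtype.val hy
        rw [← h5, rep_inv_apply]
        exact y.2
      have h5 := hn _ h4 _ h3 z hz
      show n0⁻¹ * (g * (n0 * z * n0⁻¹) * g⁻¹) * n0 ∈ N
      have h6 : n0⁻¹ * (g * (n0 * z * n0⁻¹) * g⁻¹) * n0 = (n0⁻¹ * g * n0) * z * (n0⁻¹ * g * n0)⁻¹ := by group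
      rw [h6]
      exact h5
  rw [Subgroup.eq_bot_iff_forall]
  intro z hz
  have h3 : n0 * z * n0⁻¹ ∈ UN cs h X :=
    cj_Sup_le R hn0 (S := RGD.Pos cs h) (S' := Neg cs h) (fun x hx => hx.1)
      (fun x hx => ⟨hx.1.act w, hw x hx.1 hx.2⟩) (conj_mem_cj.2 (h1 hz))
  have h4 : n0 * z * n0⁻¹ ∈ RGD.B cs h T X := RGD.U_le_B (h2 (conj_mem_cj.2 hz))
  have h5 := eq_one_of_mem_UN_of_mem_B R h3 h4
  have h6 : z = n0⁻¹ * (n0 * z * n0⁻¹) * n0 := by group
  rw [h6, h5]; group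

end

/-- **Good involutions by the opposite trick.** -/
theorem good_opp [Finite W] [Finite Y] (R : RGD cs h 2 T n X) (hG : GG cs h T X = ⊤) {J : Set I} {v n0 : Y} {w : W}
    (hn0 : Rp cs R.nsys w n0) (hw : ∀ x, IsRoot cs h x → 0 ≤ x → rep cs h w x ≤ 0)
    (hwJ : ∀ x ∈ RootsJ cs h J, rep cs h w x ∈ RootsJ cs h J) (hv2 : v * v = 1) {k : ℕ} (hk : Odd k)
    (hvk : (v * (n0⁻¹ * v * n0)) ^ k = 1) (hCv : ∀ g, g * v = v * g → g ∈ PJ cs h T X J)
    (hJ : ∀ x ∈ RootsJ cs h J, ∀ g ∈ X x, g * v = v * g)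
    (hin : ∀ α : MulAut Y, (∀ a ∈ RootsJ cs h J, ∀ z ∈ X a, α z = z) → ∃ g, α = MulAut.conj g) : Good v := by
  have : Fact (Nat.Prime 2) := ⟨Nat.prime_two⟩
  obtain ⟨v', hv'⟩ : ∃ v', v' = n0⁻¹ * v * n0 := ⟨_, rfl⟩
  have hv1 : v⁻¹ = v := inv_eq_of_mul_eq_one_right hv2
  have hv2' : v' * v' = 1 := by
    rw [hv']
    calc n0⁻¹ * v * n0 * (n0⁻¹ * v * n0) = n0⁻¹ * (v * v) * n0 := by group
      _ = 1 := by rw [hv2]; group
  have hv1' : v'⁻¹ = v' := inv_eq_of_mul_eq_one_right hv2'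
  -- the root groups of `J` centralise `v'`
  have hJ' : ∀ x ∈ RootsJ cs h J, ∀ g ∈ X x, g * v' = v' * g := by
    intro x hx g hg
    have h1 := hJ _ (hwJ x hx) _ (R.conj_mem hn0 hx.1 hg)
    rw [hv']
    calc g * (n0⁻¹ * v * n0) = n0⁻¹ * ((n0 * g * n0⁻¹) * v) * n0 := by group
      _ = n0⁻¹ * (v * (n0 * g * n0⁻¹)) * n0 := by rw [h1]
      _ = _ := by group
  have hC : ∀ x ∈ RootsJ cs h J, ∀ g ∈ X x,
      g ∈ (Subgroup.centralizer {v} ⊓ Subgroup.centralizer {v * v'} : Subgroup Y) := by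
    intro x hx g hg
    have h1 := hJ x hx g hg
    have h2 := hJ' x hx g hg
    refine mem_cc.2 ⟨h1, ?_⟩
    rw [← mul_assoc, h1, mul_assoc, h2, mul_assoc]
  refine ⟨v * v', ?_, ?_, ?_, ?_⟩
  · rw [← hv'] at hvk
    exact hk.of_dvd_nat (orderOf_dvd_of_pow_eq_one hvk)
  · rw [mul_inv_rev, hv1, hv1', ← mul_assoc, hv2, one_mul]
  · intro N hNp hNc hNn
    have hNv : ∀ z ∈ N, z * v = v * z ∧ z * v' = v' * z := by
      intro z hz
      obtain ⟨h1, h2⟩ := mem_cc.1 (hNc hz)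
      refine ⟨h1, ?_⟩
      have h3 : v * (z * v') = v * (v' * z) := by
        calc v * (z * v') = (z * v) * v' := by rw [h1]; group
          _ = z * (v * v') := by group
          _ = (v * v') * z := h2
          _ = _ := by group
      exact mul_left_cancel h3
    refine eq_bot_of_opp R hG hNp hn0 hw hwJ (fun z hz => hCv z (hNv z hz).1) (fun z hz => hCv _ ?_)
      (fun x hx g hg z hz => hNn g (hC x hx g hg) z hz)
    have h1 := (hNv z hz).2
    rw [hv'] at h1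
    calc n0 * z * n0⁻¹ * v = n0 * (z * (n0⁻¹ * v * n0)) * n0⁻¹ := by group
      _ = n0 * (n0⁻¹ * v * n0 * z) * n0⁻¹ := by rw [h1]
      _ = _ := by group
  · intro α _ _ _ hc
    exact hin α fun a ha z hz => hc z (hC a ha z hz)

end Cfsg.Agent.H297.SK.Opp
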