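import Cfsg.Agent.H282.SK.Good

/-!
# S3010 (Sidki pairs): involutions where the outer condition fails or needs a graph automorphism (helper297,
specification (E6-A) of helper737)
-/

set_option autoImplicit false
set_option linter.unusedVariables false

universe u v

open Subgroup Cfsg Cfsg.Agent.H282.SK

namespace Cfsg.Agent.H297.SK

/-- data: an involution v, x inverted, the automorphism g, the group H of inner-diagonal automorphisms -/
structure PB {Y : Type*} [Group Y] (v x : Y) (g : MulAut Y) (H : Subgroup (MulAut Y)) : Prop where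
  odd : Odd (orderOf x)
  inv : v * x * v⁻¹ = x⁻¹
  g2 : g * g = 1
  gv : g v = v
  gx : g x = x
  hN : ∀ N : Subgroup Y, IsPGroup 2 N → N ≤ centralizer {v} ⊓ centralizer {x} →
    (∀ k ∈ (centralizer {v} ⊓ centralizer {x} : Subgroup Y), ∀ z ∈ N, k * z * k⁻¹ ∈ N) → N = ⊥
  hNg : ∀ N : Subgroup Y, IsPGroup 2 N → N ≤ centralizer {v} ⊓ centralizer {x} → (∀ z ∈ N, g z = z) →
    (∀ k ∈ (centralizer {v} ⊓ centralizer {x} : Subgroup Y), g k = k → ∀ z ∈ N, k * z * k⁻¹ ∈ N) → N = ⊥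
  inn : ∀ k : Y, MulAut.conj k ∈ H
  cube : ∀ δ ∈ H, ∃ k : Y, δ ^ 3 = MulAut.conj k
  dich : ∀ α : MulAut Y, α * α = 1 → (∀ z ∈ (centralizer {v} ⊓ centralizer {x} : Subgroup Y), α z = z) →
    α ∈ H ∨ α * g ∈ H

section tools

variable {Y : Type*} [Group Y]

/-- a 2-element of `C` centralised by `D ≤ C`, with the hypothesis on normalised 2-subgroups -/
theorem eq_one_of_sq {P : Y → Prop} {C : Subgroup Y} {k : Y} {n : ℕ} (hk : k ^ 2 ^ n = 1) (hkC : k ∈ C)
    (hP : ∀ N : Subgroup Y, IsPGroup 2 N → N ≤ C → N ≤ zpowers k → (∀ c, P c → ∀ z ∈ N, c * z * c⁻¹ ∈ N) → N = ⊥)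
    (hc : ∀ c, P c → c * k = k * c) : k = 1 := by
  have h1 : zpowers k = ⊥ := by
    apply hP
    · rw [IsPGroup.iff_orderOf]
      rintro ⟨z, hz⟩
      have hz1 : z ^ 2 ^ n = 1 := by
        obtain ⟨i, rfl⟩ := mem_zpowers_iff.1 hz
        rw [← zpow_natCast, ← zpow_mul, mul_comm, zpow_mul, zpow_natCast, hk, one_zpow]
      have hd : orderOf (⟨z, hz⟩ : zpowers k) ∣ 2 ^ n := by
        apply orderOf_dvd_of_pow_eq_one
        exact Subtype.ext hz1
      obtain ⟨m, -, hm⟩ := (Nat.dvd_prime_pow Nat.prime_two).1 hd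
      exact ⟨m, hm⟩
    · exact (zpowers_le).2 hkC
    · exact le_rfl
    · intro c hcP z hz
      obtain ⟨i, rfl⟩ := mem_zpowers_iff.1 hz
      have h2 : Commute c k := hc c hcP
      have h3 : c * k ^ i * c⁻¹ = k ^ i := by
        rw [mul_inv_eq_iff_eq_mul]
        exact (h2.zpow_right i).eq
      rw [h3]
      exact zpow_mem (mem_zpowers k) i
  exact (zpowers_eq_bot).1 h1

theorem conj_aut (α : MulAut Y) (k : Y) : α * MulAut.conj k * α⁻¹ = MulAut.conj (α k) := by
  apply MulEquiv.ext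
  intro z
  simp only [MulAut.mul_apply, MulAut.conj_apply, map_mul, map_inv, MulAut.apply_inv_self]

end tools

variable {Y : Type*} [Group Y] {v x : Y} {g : MulAut Y} {H : Subgroup (MulAut Y)}

namespace PB

theorem hg (P : PB v x g H) (z : Y) : g (g z) = z := by
  have := congrArg (fun β : MulAut Y => β z) P.g2
  simpa using this

theorem mem_map (P : PB v x g H) {z : Y} (hz : z ∈ (centralizer {v} ⊓ centralizer {x} : Subgroup Y)) :
    g z ∈ (centralizer {v} ⊓ centralizer {x} : Subgroup Y) := by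
  obtain ⟨h1, h2⟩ := mem_cc.1 hz
  refine mem_cc.2 ⟨?_, ?_⟩
  · have := congrArg g h1
    rwa [map_mul, map_mul, P.gv] at this
  · have := congrArg g h2
    rwa [map_mul, map_mul, P.gx] at this

/-- a 2-element of `C` which is central in `C` is trivial -/
theorem one_of_central (P : PB v x g H) {k : Y} {n : ℕ} (hk : k ^ 2 ^ n = 1)
    (hkC : k ∈ (centralizer {v} ⊓ centralizer {x} : Subgroup Y))
    (hc : ∀ c ∈ (centralizer {v} ⊓ centralizer {x} : Subgroup Y), c * k = k * c) : k = 1 :=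
  eq_one_of_sq (P := fun c => c ∈ (centralizer {v} ⊓ centralizer {x} : Subgroup Y)) hk hkC
    (fun N h1 h2 _ h4 => P.hN N h1 h2 h4) hc

/-- if `α * g` is in `H` and `α` is trivial on `C`, `(α g)^3 = conj k` with `k ∈ C` -/
theorem mem_of_fix {k : Y} {δ : MulAut Y} (hk : δ = MulAut.conj k) (hv : δ v = v) (hx : δ x = x) :
    k ∈ (centralizer {v} ⊓ centralizer {x} : Subgroup Y) := by
  subst hk
  rw [MulAut.conj_apply, mul_inv_eq_iff_eq_mul] at hv hx
  exact mem_cc.2 ⟨hv, hx⟩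

theorem not_mem (P : PB v x g H) {α : MulAut Y} (h2 : α * α = 1) (hni : ¬ ∃ k, α = MulAut.conj k) : α ∉ H := by
  intro hα
  obtain ⟨k, hk⟩ := P.cube α hα
  exact hni ⟨k, by rw [← hk, pow_succ, pow_two, h2, one_mul]⟩

/-- **principle P**: a non-inner `α` of order 2 centralising `v`, `x`, `C` exists only if `g` is trivial on `C` -/
theorem fix [Finite Y] (P : PB v x g H) (hZ : center Y = ⊥) {α : MulAut Y} (h2 : α * α = 1) (hv : α v = v)
    (hx : α x = x) (hC : ∀ z ∈ (centralizer {v} ⊓ centralizer {x} : Subgroup Y), α z = z)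
    (hni : ¬ ∃ k, α = MulAut.conj k) :
    ∀ z ∈ (centralizer {v} ⊓ centralizer {x} : Subgroup Y), g z = z := by
  have hδ : α * g ∈ H := (P.dich α h2 hC).resolve_left (P.not_mem h2 hni)
  obtain ⟨k, hk⟩ := P.cube _ hδ
  have e1 : ∀ z ∈ (centralizer {v} ⊓ centralizer {x} : Subgroup Y), (α * g) z = g z := by
    intro z hz
    rw [MulAut.mul_apply]
    exact hC _ (P.mem_map hz)
  have e3 : ∀ z ∈ (centralizer {v} ⊓ centralizer {x} : Subgroup Y), ((α * g) ^ 3) z = g z := by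
    intro z hz
    rw [pow_succ, pow_two, MulAut.mul_apply, MulAut.mul_apply, e1 z hz, e1 _ (P.mem_map hz), P.hg, e1 z hz]
  have hkC : k ∈ (centralizer {v} ⊓ centralizer {x} : Subgroup Y) := by
    apply mem_of_fix hk
    · have h3 : (α * g) v = v := by rw [MulAut.mul_apply, P.gv, hv]
      rw [pow_succ, pow_two, MulAut.mul_apply, MulAut.mul_apply, h3, h3, h3]
    · have h3 : (α * g) x = x := by rw [MulAut.mul_apply, P.gx, hx]
      rw [pow_succ, pow_two, MulAut.mul_apply, MulAut.mul_apply, h3, h3, h3]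
  have e4 : ∀ z ∈ (centralizer {v} ⊓ centralizer {x} : Subgroup Y), k * z * k⁻¹ = g z := by
    intro z hz
    rw [← e3 z hz, hk, MulAut.conj_apply]
  -- the odd part
  obtain ⟨n, m, hm, hnm⟩ : ∃ n m : ℕ, Odd m ∧ orderOf (k * k) = 2 ^ n * m := by
    have h0 : orderOf (k * k) ≠ 0 := (orderOf_pos (k * k)).ne'
    obtain ⟨n, m, h1, h3⟩ := Nat.exists_eq_two_pow_mul_odd h0
    exact ⟨n, m, h1, h3⟩
  have hkk : (k * k) ^ m = 1 := by
    apply P.one_of_central (n := n)
    · rw [← pow_mul, mul_comm, ← hnm, pow_orderOf_eq_one]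
    · exact pow_mem (mul_mem hkC hkC) m
    · intro c hc
      have h3 : Commute c (k * k) := by
        have h4 : k * k * c * (k * k)⁻¹ = c := by
          have h5 : k * k * c * (k * k)⁻¹ = k * (k * c * k⁻¹) * k⁻¹ := by group
          rw [h5, e4 c hc, e4 _ (P.mem_map hc), P.hg]
        rw [mul_inv_eq_iff_eq_mul] at h4
        exact h4.symm
      exact (h3.pow_right m).eq
  have e5 : ∀ z ∈ (centralizer {v} ⊓ centralizer {x} : Subgroup Y), k ^ m * z * (k ^ m)⁻¹ = g z := by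
    intro z hz
    obtain ⟨j, rfl⟩ := hm
    have h6 : ∀ i : ℕ, (k * k) ^ i * z = z * (k * k) ^ i := by
      intro i
      have h4 : k * k * z * (k * k)⁻¹ = z := by
        have h5 : k * k * z * (k * k)⁻¹ = k * (k * z * k⁻¹) * k⁻¹ := by group
        rw [h5, e4 z hz, e4 _ (P.mem_map hz), P.hg]
      rw [mul_inv_eq_iff_eq_mul] at h4
      have h3 : Commute (k * k) z := h4
      exact (h3.pow_left i).eq
    have h7 : k ^ (2 * j + 1) = k * (k * k) ^ j := by
      rw [pow_succ', pow_mul, pow_two]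
    rw [h7, ← e4 z hz, mul_inv_rev, mul_assoc k, h6 j]
    group
  have hk' : k ^ m = 1 := by
    refine eq_one_of_sq (P := fun c => c ∈ (centralizer {v} ⊓ centralizer {x} : Subgroup Y) ∧ g c = c)
      (k := k ^ m) (n := 1) ?_ (pow_mem hkC m) ?_ ?_
    · rw [pow_one, ← pow_mul, mul_comm, pow_mul, pow_two, hkk]
    · intro N h1 h3 h5 h4
      apply P.hNg N h1 h3
      · intro z hz
        obtain ⟨i, rfl⟩ := mem_zpowers_iff.1 (h5 hz)
        have h6 : (k ^ m) ^ i ∈ (centralizer {v} ⊓ centralizer {x} : Subgroup Y) := h3 hz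
        rw [← e5 _ h6]
        group
      · intro c hc hgc z hz
        exact h4 c ⟨hc, hgc⟩ z hz
    · rintro c ⟨hc, hgc⟩
      have h3 := e5 c hc
      rw [hgc, mul_inv_eq_iff_eq_mul] at h3
      exact h3.symm
  intro z hz
  rw [← e5 z hz, hk']
  group

/-- hence `Good v` if `g` moves an element of `C` -/
theorem good [Finite Y] (P : PB v x g H) (hZ : center Y = ⊥) {z : Y}
    (hz : z ∈ (centralizer {v} ⊓ centralizer {x} : Subgroup Y)) (hgz : g z ≠ z) : Good v := by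
  refine ⟨x, P.odd, P.inv, P.hN, ?_⟩
  intro α h2 hv hx hC
  by_contra hni
  exact hgz (P.fix hZ h2 hv hx hC hni z hz)

end PB

/-- the hypothesis on 2-subgroups, conjugated by `c ∈ C(v)` -/
theorem hN_conj {v x : Y} (hN : ∀ N : Subgroup Y, IsPGroup 2 N → N ≤ centralizer {v} ⊓ centralizer {x} →
      (∀ k ∈ (centralizer {v} ⊓ centralizer {x} : Subgroup Y), ∀ z ∈ N, k * z * k⁻¹ ∈ N) → N = ⊥)
    {c : Y} (hc : c * v = v * c) :
    ∀ N : Subgroup Y, IsPGroup 2 N → N ≤ centralizer {v} ⊓ centralizer {c * x * c⁻¹} →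
      (∀ k ∈ (centralizer {v} ⊓ centralizer {c * x * c⁻¹} : Subgroup Y), ∀ z ∈ N, k * z * k⁻¹ ∈ N) → N = ⊥ := by
  intro N hNp hNc hNn
  have hv : ∀ z : Y, c * z * c⁻¹ * v = v * (c * z * c⁻¹) ↔ z * v = v * z := by
    intro z
    have hv' : c⁻¹ * v * c = v := by rw [mul_assoc, ← hc]; group
    constructor
    · intro h1
      calc z * v = z * (c⁻¹ * v * c) := by rw [hv']
        _ = c⁻¹ * (c * z * c⁻¹ * v) * c := by group
        _ = c⁻¹ * (v * (c * z * c⁻¹)) * c := by rw [h1]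
        _ = (c⁻¹ * v * c) * z := by group
        _ = v * z := by rw [hv']
    · intro h1
      have hv2 : c * v * c⁻¹ = v := by rw [hc]; group
      calc c * z * c⁻¹ * v = c * z * c⁻¹ * (c * v * c⁻¹) := by rw [hv2]
        _ = c * (z * v) * c⁻¹ := by group
        _ = c * (v * z) * c⁻¹ := by rw [h1]
        _ = (c * v * c⁻¹) * (c * z * c⁻¹) := by group
        _ = v * (c * z * c⁻¹) := by rw [hv2]
  have hx : ∀ z : Y, c * z * c⁻¹ * (c * x * c⁻¹) = c * x * c⁻¹ * (c * z * c⁻¹) ↔ z * x = x * z := by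
    intro z
    constructor
    · intro h1
      calc z * x = c⁻¹ * (c * z * c⁻¹ * (c * x * c⁻¹)) * c := by group
        _ = c⁻¹ * (c * x * c⁻¹ * (c * z * c⁻¹)) * c := by rw [h1]
        _ = x * z := by group
    · intro h1
      calc c * z * c⁻¹ * (c * x * c⁻¹) = c * (z * x) * c⁻¹ := by group
        _ = c * (x * z) * c⁻¹ := by rw [h1]
        _ = c * x * c⁻¹ * (c * z * c⁻¹) := by group
  have h1 : N.comap (MulAut.conj c).toMonoidHom = ⊥ := by
    apply hN
    · exact hNp.comap_of_injective _ (MulAut.conj c).injective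
    · intro z hz
      obtain ⟨h2, h3⟩ := mem_cc.1 (hNc (show MulAut.conj c z ∈ N from hz))
      rw [MulAut.conj_apply] at h2 h3
      exact mem_cc.2 ⟨(hv z).1 h2, (hx z).1 h3⟩
    · intro k hk z hz
      obtain ⟨h2, h3⟩ := mem_cc.1 hk
      show MulAut.conj c (k * z * k⁻¹) ∈ N
      rw [map_mul, map_mul, map_inv]
      refine hNn (MulAut.conj c k) (mem_cc.2 ⟨?_, ?_⟩) (MulAut.conj c z) hz
      · rw [MulAut.conj_apply]; exact (hv k).2 h2
      · rw [MulAut.conj_apply]; exact (hx k).2 h3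
  rw [eq_bot_iff]
  intro z hz
  have h4 : (MulAut.conj c).symm z ∈ N.comap (MulAut.conj c).toMonoidHom := by
    show MulAut.conj c ((MulAut.conj c).symm z) ∈ N
    rwa [MulEquiv.apply_symm_apply]
  rw [h1, mem_bot] at h4
  rw [mem_bot]
  have := congrArg (MulAut.conj c) h4
  rwa [MulEquiv.apply_symm_apply, map_one] at this

section cx

variable {G : Type u} [Group G] [Finite G] {V K : Subgroup G}

/-- The element `r` given by `Cx.t1`: it acts trivially on `C(v) ∩ C(x)`, fixes `v` and `x`, and is not inner. -/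
theorem exists_r (h : Cx V K) {Y : Type v} [Group Y] (e : K ≃* Y) (φ : G →* MulAut Y)
    (hφ : Function.Injective φ) (hφK : ∀ k : K, φ k = MulAut.conj (e k))
    (hφg : ∀ (g : G) (k : K), ∃ hgk : g * k * g⁻¹ ∈ K, φ g (e k) = e ⟨g * k * g⁻¹, hgk⟩)
    {w : G} (hw : w ∈ V) (hw1 : w ≠ 1) (hwK : w ∈ K) {x : Y} (hx : Odd (orderOf x))
    (hi : e ⟨w, hwK⟩ * x * (e ⟨w, hwK⟩)⁻¹ = x⁻¹)
    (hN : ∀ N : Subgroup Y, IsPGroup 2 N → N ≤ centralizer {e ⟨w, hwK⟩} ⊓ centralizer {x} →
      (∀ k ∈ (centralizer {e ⟨w, hwK⟩} ⊓ centralizer {x} : Subgroup Y), ∀ z ∈ N, k * z * k⁻¹ ∈ N) → N = ⊥) :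
    ∃ r ∈ V, φ r (e ⟨w, hwK⟩) = e ⟨w, hwK⟩ ∧ φ r x = x ∧
      (∀ z ∈ (centralizer {e ⟨w, hwK⟩} ⊓ centralizer {x} : Subgroup Y), φ r z = z) ∧
      ¬ ∃ k, φ r = MulAut.conj k := by
  set x' : K := e.symm x with hx'
  have hex : e x' = x := by rw [hx', MulEquiv.apply_symm_apply]
  have hcomm : ∀ (g : G) (k : K), φ g (e k) = e k ↔ g * (k : G) = (k : G) * g := by
    intro g k
    obtain ⟨hgk, hg⟩ := hφg g k
    rw [hg]
    constructor
    · intro h1
      have h2 := congrArg Subtype.val (e.injective h1)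
      simp only at h2
      rwa [mul_inv_eq_iff_eq_mul] at h2
    · intro h1
      congr 1
      apply Subtype.ext
      simp only
      rw [h1]; group
  have hxo : Odd (orderOf (x' : G)) := by
    rw [Subgroup.orderOf_coe, hx', MulEquiv.orderOf_eq]
    exact hx
  have hinv : w * (x' : G) * w⁻¹ = (x' : G)⁻¹ := by
    rw [← hex, ← map_mul, ← map_inv, ← map_mul, ← map_inv] at hi
    exact congrArg Subtype.val (e.injective hi)
  obtain ⟨r, hrV, hr1, hrx, hrO⟩ := h.t1 hw hw1 hxo hinv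
  set C : Subgroup G := centralizer ({w} : Set G) ⊓ centralizer ({(x' : G)} : Set G) with hC
  have hmemC : ∀ k : K, (k : G) ∈ C ↔ e k ∈ (centralizer {e ⟨w, hwK⟩} ⊓ centralizer {x} : Subgroup Y) := by
    intro k
    rw [hC, mem_cc, mem_cc, ← hex, ← map_mul, ← map_mul, ← map_mul, ← map_mul]
    constructor
    · rintro ⟨h1, h2⟩
      exact ⟨congrArg e (Subtype.ext h1), congrArg e (Subtype.ext h2)⟩
    · rintro ⟨h1, h2⟩
      exact ⟨congrArg Subtype.val (e.injective h1), congrArg Subtype.val (e.injective h2)⟩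
  have hOK : ∀ z ∈ O2 C, z ∈ K → z = 1 := by
    intro z hz hzK
    have h1 : ((O2 C).subgroupOf K).map e.toMonoidHom = ⊥ := by
      apply hN
      · refine IsPGroup.map ?_ _
        exact (isPGroup_O2 C).comap_of_injective K.subtype K.subtype_injective
      · rintro _ ⟨k, hk, rfl⟩
        exact (hmemC k).1 (O2_le C hk)
      · rintro g hg1 _ ⟨k, hk, rfl⟩
        obtain ⟨g', rfl⟩ := e.surjective g
        have hg' : (g' : G) ∈ C := (hmemC g').2 hg1
        refine ⟨g' * k * g'⁻¹, ?_, by simp⟩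
        show ((g' * k * g'⁻¹ : K) : G) ∈ O2 C
        exact conj_mem_O2 hg' hk
    have h2 : e ⟨z, hzK⟩ ∈ ((O2 C).subgroupOf K).map e.toMonoidHom := ⟨⟨z, hzK⟩, hz, rfl⟩
    rw [h1, mem_bot] at h2
    have h3 : (⟨z, hzK⟩ : K) = 1 := e.injective (by rw [h2, map_one])
    exact congrArg Subtype.val h3
  refine ⟨r, hrV, ?_, ?_, ?_, ?_⟩
  · rw [hcomm]
    exact (h.comm hrV hw).eq
  · rw [← hex, hcomm]
    exact hrx.eq
  · intro c hc
    obtain ⟨k, rfl⟩ := e.surjective c
    rw [hcomm]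
    have hkC : (k : G) ∈ C := (hmemC k).2 hc
    have h1 : r * (k : G) * r⁻¹ * (k : G)⁻¹ = 1 := by
      apply hOK
      · have e1 : r * (k : G) * r⁻¹ * (k : G)⁻¹ = r * ((k : G) * r⁻¹ * (k : G)⁻¹) := by group
        rw [e1]
        exact (O2 C).mul_mem hrO (conj_mem_O2 hkC ((O2 C).inv_mem hrO))
      · exact K.mul_mem (h.norm.conj_mem _ k.2 r) (K.inv_mem k.2)
    rw [mul_inv_eq_one, mul_inv_eq_iff_eq_mul] at h1
    exact h1
  · rintro ⟨g, hg⟩
    obtain ⟨k, rfl⟩ := e.surjective g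
    rw [← hφK] at hg
    have hrK : r = (k : G) := hφ hg
    apply hr1
    exact hOK r hrO (hrK ▸ k.2)

/-- **the case where `g` may be trivial on `C`** -/
theorem PB.false_of (h : Cx V K) {Y : Type v} [Group Y] (e : K ≃* Y) {w : G} (hwK : w ∈ K) {x : Y} {g : MulAut Y}
    {H : Subgroup (MulAut Y)} (P : PB (e ⟨w, hwK⟩) x g H) (hw : w ∈ V) (hw1 : w ≠ 1)
    {c₁ c₂ : Y} (h1 : c₁ * e ⟨w, hwK⟩ = e ⟨w, hwK⟩ * c₁) (h2 : c₂ * e ⟨w, hwK⟩ = e ⟨w, hwK⟩ * c₂)
    (hne : (c₁ * (g c₁)⁻¹) * (c₂ * (g c₂)⁻¹) ≠ (c₂ * (g c₂)⁻¹) * (c₁ * (g c₁)⁻¹)) : False := by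
  have : Finite Y := Finite.of_equiv K e.toEquiv
  have hZ : ∀ z : Y, (∀ y : Y, z * y = y * z) → z = 1 := by
    intro z hz
    obtain ⟨k, rfl⟩ := e.surjective z
    have h2 : (k : G) = 1 := by
      apply h.eq_one_of_comm
      intro y hy
      have h3 := hz (e ⟨y, hy⟩)
      rw [← map_mul, ← map_mul] at h3
      exact congrArg Subtype.val (e.injective h3)
    have h4 : k = 1 := Subtype.ext h2
    rw [h4, map_one]
  have hZ' : center Y = ⊥ := by
    rw [eq_bot_iff]
    intro z hz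
    rw [mem_bot]
    exact hZ z fun y => ((mem_center_iff.1 hz) y).symm
  have hinj : ∀ a b : Y, MulAut.conj a = MulAut.conj b → a = b := by
    intro a b hab
    have h3 : b⁻¹ * a = 1 := by
      apply hZ
      intro y
      have h4 : MulAut.conj (b⁻¹ * a) = 1 := by rw [map_mul, map_inv, hab, inv_mul_cancel]
      have h5 := congrArg (fun β : MulAut Y => β y) h4
      simp only [MulAut.conj_apply, MulAut.one_apply] at h5
      rwa [mul_inv_eq_iff_eq_mul] at h5
    rw [inv_mul_eq_one] at h3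
    exact h3.symm
  obtain ⟨φ, hφ, hφK, hφg⟩ := h.exists_toAut e
  set v : Y := e ⟨w, hwK⟩ with hv
  -- the element attached to `c`
  have key : ∀ c : Y, c * v = v * c → ∃ r ∈ V, φ r v = v ∧ φ r (c * x * c⁻¹) = c * x * c⁻¹ ∧
      (∀ z ∈ (centralizer {v} ⊓ centralizer {c * x * c⁻¹} : Subgroup Y), φ r z = z) ∧
      ¬ ∃ k, φ r = MulAut.conj k := by
    intro c hc
    apply exists_r h e φ hφ hφK hφg hw hw1 hwK
    · have h3 : orderOf (c * x * c⁻¹) = orderOf x := by
        have := MulEquiv.orderOf_eq (MulAut.conj c) x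
        rwa [MulAut.conj_apply] at this
      rw [h3]
      exact P.odd
    · have hv2 : c * v * c⁻¹ = v := by rw [hc]; group
      calc v * (c * x * c⁻¹) * v⁻¹ = (c * v * c⁻¹) * (c * x * c⁻¹) * (c * v * c⁻¹)⁻¹ := by rw [hv2]
        _ = c * (v * x * v⁻¹) * c⁻¹ := by group
        _ = c * x⁻¹ * c⁻¹ := by rw [P.inv]
        _ = (c * x * c⁻¹)⁻¹ := by group
    · exact hN_conj P.hN hc
  obtain ⟨r, hrV, hrv, hrx, hrC, hrn⟩ := key 1 (by rw [one_mul, mul_one])
  rw [one_mul, inv_one, mul_one] at hrx hrC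
  set α : MulAut Y := φ r with hα
  have hαα : α * α = 1 := by rw [hα, ← map_mul, h.sq hrV, map_one]
  have hαinv : α⁻¹ = α := by rw [inv_eq_iff_mul_eq_one]; exact hαα
  have hαH : α * g ∈ H := (P.dich α hαα hrC).resolve_left (P.not_mem hαα hrn)
  -- `α_c = α`
  have main : ∀ c : Y, c * v = v * c → ∃ s ∈ V, φ s = MulAut.conj c * α * (MulAut.conj c)⁻¹ := by
    intro c hc
    obtain ⟨s, hsV, hsv, hsx, hsC, hsn⟩ := key c hc
    refine ⟨s, hsV, ?_⟩
    set β : MulAut Y := φ s with hβ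
    have hββ : β * β = 1 := by rw [hβ, ← map_mul, h.sq hsV, map_one]
    set γ : MulAut Y := (MulAut.conj c)⁻¹ * β * MulAut.conj c with hγ
    have hγγ : γ * γ = 1 := by
      calc γ * γ = (MulAut.conj c)⁻¹ * (β * β) * MulAut.conj c := by rw [hγ]; group
        _ = 1 := by rw [hββ]; group
    have hγa : ∀ z, γ z = c⁻¹ * β (c * z * c⁻¹) * c := by
      intro z
      rw [hγ, MulAut.mul_apply, MulAut.mul_apply, MulAut.conj_apply, ← map_inv, MulAut.conj_apply, inv_inv]
    have hγv : γ v = v := by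
      have hv2 : c * v * c⁻¹ = v := by rw [hc]; group
      rw [hγa, hv2, hsv, mul_assoc, ← hc]
      group
    have hγx : γ x = x := by
      rw [hγa, hsx]
      group
    have hγC : ∀ z ∈ (centralizer {v} ⊓ centralizer {x} : Subgroup Y), γ z = z := by
      intro z hz
      rw [hγa, hsC]
      · group
      · obtain ⟨h3, h4⟩ := mem_cc.1 hz
        have hv2 : c * v * c⁻¹ = v := by rw [hc]; group
        refine mem_cc.2 ⟨?_, ?_⟩
        · calc c * z * c⁻¹ * v = c * z * c⁻¹ * (c * v * c⁻¹) := by rw [hv2]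
            _ = c * (z * v) * c⁻¹ := by group
            _ = c * (v * z) * c⁻¹ := by rw [h3]
            _ = (c * v * c⁻¹) * (c * z * c⁻¹) := by group
            _ = v * (c * z * c⁻¹) := by rw [hv2]
        · calc c * z * c⁻¹ * (c * x * c⁻¹) = c * (z * x) * c⁻¹ := by group
            _ = c * (x * z) * c⁻¹ := by rw [h4]
            _ = c * x * c⁻¹ * (c * z * c⁻¹) := by group
    have hγn : ¬ ∃ k, γ = MulAut.conj k := by
      rintro ⟨k, hk⟩
      apply hsn
      refine ⟨c * k * c⁻¹, ?_⟩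
      rw [map_mul, map_mul, map_inv, ← hk, hγ]
      group
    have hγH : γ * g ∈ H := (P.dich γ hγγ hγC).resolve_left (P.not_mem hγγ hγn)
    have hγα : γ * α ∈ H := by
      have h3 : γ * α = (γ * g) * (α * g)⁻¹ := by rw [mul_inv_rev, hαinv]; group
      rw [h3]
      exact H.mul_mem hγH (H.inv_mem hαH)
    have hβγ : β = MulAut.conj (c * (γ c)⁻¹) * γ := by
      have h3 : γ * MulAut.conj c⁻¹ * γ⁻¹ = MulAut.conj (γ c⁻¹) := conj_aut γ c⁻¹
      have h4 : β = MulAut.conj c * γ * MulAut.conj c⁻¹ := by rw [hγ, map_inv]; group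
      calc β = MulAut.conj c * γ * MulAut.conj c⁻¹ := h4
        _ = MulAut.conj c * (γ * MulAut.conj c⁻¹ * γ⁻¹) * γ := by group
        _ = MulAut.conj (c * (γ c)⁻¹) * γ := by rw [h3, map_inv, map_mul, map_inv]
    have hβα : β * α ∈ H := by
      rw [hβγ, mul_assoc]
      exact H.mul_mem (P.inn _) hγα
    have hβα2 : (β * α) * (β * α) = 1 := by
      rw [hβ, hα, ← map_mul, ← map_mul, h.sq (V.mul_mem hsV hrV), map_one]
    obtain ⟨k₁, hk₁⟩ := P.cube _ hβα
    rw [pow_succ, pow_two, hβα2, one_mul] at hk₁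
    obtain ⟨k, hk⟩ : ∃ k, γ * α = MulAut.conj k := by
      refine ⟨(c * (γ c)⁻¹)⁻¹ * k₁, ?_⟩
      rw [map_mul, map_inv, ← hk₁, hβγ]
      group
    have hkC : k ∈ (centralizer {v} ⊓ centralizer {x} : Subgroup Y) := by
      apply PB.mem_of_fix hk
      · rw [MulAut.mul_apply, hrv, hγv]
      · rw [MulAut.mul_apply, hrx, hγx]
    have hk2 : k * k = 1 := by
      have h3 : MulAut.conj k = MulAut.conj k⁻¹ := by
        calc MulAut.conj k = MulAut.conj (α k) := by rw [hrC k hkC]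
          _ = α * MulAut.conj k * α⁻¹ := (conj_aut α k).symm
          _ = α * (γ * α) * α⁻¹ := by rw [hk]
          _ = α * γ := by group
          _ = α⁻¹ * γ⁻¹ := by rw [hαinv, inv_eq_of_mul_eq_one_left hγγ]
          _ = (γ * α)⁻¹ := by group
          _ = MulAut.conj k⁻¹ := by rw [hk, map_inv]
      have h4 := hinj _ _ h3
      nth_rw 1 [h4]
      exact inv_mul_cancel k
    have hk1 : k = 1 := by
      apply P.one_of_central (n := 1) (by rw [pow_one, pow_two, hk2]) hkC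
      intro z hz
      have h3 : (MulAut.conj k) z = z := by rw [← hk, MulAut.mul_apply, hrC z hz, hγC z hz]
      rw [MulAut.conj_apply, mul_inv_eq_iff_eq_mul] at h3
      exact h3.symm
    rw [hk1, map_one] at hk
    have h5 : γ = α := by
      rw [mul_eq_one_iff_eq_inv, hαinv] at hk
      exact hk
    rw [← h5, hγ]
    group
  -- the elements `c α(c)⁻¹` commute
  have hcom : ∀ c d : Y, c * v = v * c → d * v = v * d →
      (c * (α c)⁻¹) * (d * (α d)⁻¹) = (d * (α d)⁻¹) * (c * (α c)⁻¹) := by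
    have h3 : ∀ c : Y, c * v = v * c → ∃ s ∈ V, φ s = MulAut.conj (c * (α c)⁻¹) := by
      intro c hc
      obtain ⟨s, hsV, hs⟩ := main c hc
      refine ⟨s * r, V.mul_mem hsV hrV, ?_⟩
      rw [map_mul, hs, ← hα]
      have h4 : α * MulAut.conj c⁻¹ * α⁻¹ = MulAut.conj (α c⁻¹) := conj_aut α c⁻¹
      rw [map_mul, ← map_inv α, ← h4, hαinv, map_inv]
      group
    intro c d hc hd
    obtain ⟨s, hsV, hs⟩ := h3 c hc
    obtain ⟨t, htV, ht⟩ := h3 d hd
    apply hinj
    rw [map_mul, map_mul (MulAut.conj) (d * (α d)⁻¹), ← hs, ← ht, ← map_mul, ← map_mul, (h.comm hsV htV).eq]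
  have hfix := P.fix hZ' hαα hrv hrx hrC hrn
  -- `d = α g`
  obtain ⟨k₀, hk₀⟩ := P.cube _ hαH
  have hginv : g⁻¹ = g := by rw [inv_eq_iff_mul_eq_one]; exact P.g2
  have hdv : (α * g) v = v := by rw [MulAut.mul_apply, P.gv, hrv]
  have hdx : (α * g) x = x := by rw [MulAut.mul_apply, P.gx, hrx]
  have hdC : ∀ z ∈ (centralizer {v} ⊓ centralizer {x} : Subgroup Y), (α * g) z = z := by
    intro z hz
    rw [MulAut.mul_apply, hfix z hz, hrC z hz]
  have hk0C : k₀ ∈ (centralizer {v} ⊓ centralizer {x} : Subgroup Y) := by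
    apply PB.mem_of_fix hk₀
    · rw [pow_succ, pow_two, MulAut.mul_apply, MulAut.mul_apply, hdv, hdv, hdv]
    · rw [pow_succ, pow_two, MulAut.mul_apply, MulAut.mul_apply, hdx, hdx, hdx]
  have hk02 : k₀ * k₀ = 1 := by
    have h3 : MulAut.conj k₀ = MulAut.conj k₀⁻¹ := by
      calc MulAut.conj k₀ = MulAut.conj (g k₀) := by rw [hfix k₀ hk0C]
        _ = g * MulAut.conj k₀ * g⁻¹ := (conj_aut g k₀).symm
        _ = g * (α * g) ^ 3 * g⁻¹ := by rw [hk₀]
        _ = (g * α) ^ 3 := by simp only [pow_succ, pow_zero, one_mul, mul_assoc, mul_inv_cancel, mul_one]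
        _ = (g⁻¹ * α⁻¹) ^ 3 := by rw [hαinv, hginv]
        _ = ((α * g) ^ 3)⁻¹ := by rw [← mul_inv_rev, inv_pow]
        _ = MulAut.conj k₀⁻¹ := by rw [hk₀, map_inv]
    have h4 := hinj _ _ h3
    nth_rw 1 [h4]
    exact inv_mul_cancel k₀
  have hk01 : k₀ = 1 := by
    apply P.one_of_central (n := 1) (by rw [pow_one, pow_two, hk02]) hk0C
    intro z hz
    have h3 : (MulAut.conj k₀) z = z := by
      rw [← hk₀, pow_succ, pow_two, MulAut.mul_apply, MulAut.mul_apply, hdC z hz, hdC z hz, hdC z hz]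
    rw [MulAut.conj_apply, mul_inv_eq_iff_eq_mul] at h3
    exact h3.symm
  rw [hk01, map_one] at hk₀
  set d : MulAut Y := α * g with hd
  have hαd : α = d⁻¹ * g * d := by
    have h3 : d * d * d = 1 := by rw [← hk₀, pow_succ, pow_two]
    have h4 : d * g = α := by rw [hd, mul_assoc, P.g2, mul_one]
    have h5 : g * d * g = d⁻¹ := by
      rw [hd, mul_assoc, mul_assoc, P.g2, mul_one, mul_inv_rev, hαinv, hginv]
    calc α = d * g := h4.symm
      _ = d⁻¹ * d⁻¹ * (d * d * d) * g := by group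
      _ = d⁻¹ * d⁻¹ * g := by rw [h3, mul_one]
      _ = d⁻¹ * (g * d * g) * g := by rw [h5]
      _ = d⁻¹ * g * d * (g * g) := by simp only [mul_assoc]
      _ = d⁻¹ * g * d := by rw [P.g2, mul_one]
  have hdv' : d⁻¹ v = v := by
    have h3 : d⁻¹ (d v) = v := MulAut.inv_apply_self _ _ _
    rwa [hdv] at h3
  have htr : ∀ c : Y, c * v = v * c → (d⁻¹ c) * v = v * (d⁻¹ c) := by
    intro c hc
    have h3 := congrArg (fun y => d⁻¹ y) hc
    simp only [map_mul, hdv'] at h3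
    exact h3
  have hval : ∀ c : Y, (d⁻¹ c) * (α (d⁻¹ c))⁻¹ = d⁻¹ (c * (g c)⁻¹) := by
    intro c
    rw [hαd, MulAut.mul_apply, MulAut.mul_apply, MulAut.apply_inv_self, map_mul, map_inv]
  apply hne
  have h6 := hcom _ _ (htr c₁ h1) (htr c₂ h2)
  rw [hval, hval, ← map_mul, ← map_mul] at h6
  exact (d⁻¹).injective h6

end cx

end Cfsg.Agent.H297.SK
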