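import Cfsg.Agent.H297.SK.TwF
import Cfsg.Agent.H297.SK.DichE6
import Cfsg.Agent.BpExc.EmbInst
import Cfsg.Agent.H737.SK.GoodTwo

/-!
# S3010: `²E₆(q)`, `q` even, inside `E₆(q²)` (helper297)

* `FF` : the twisted Frobenius automorphism of `chevE6.group K`; `twF` : `TwF`;
* `L0` : `²E₆(q)` in `chevE6.group K`, `io` : the embedding; `le_fix`, `normal`;
* `mem1`, `mem2` : root elements in `L0`;
* `pb` : the data `PB`.
-/

set_option autoImplicit false
set_option linter.unusedSectionVars false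
set_option linter.unusedVariables false

namespace Cfsg.Agent.H297.SK.TwE

open CoxeterSystem Cfsg.Agent.ChevalleyStructure.CoxeterGeom Cfsg.Agent.Tits.Roots Cfsg.Agent.Tits.Core
  Cfsg.Agent.Nodes.Reps Cfsg.Agent.Nodes.BNOf Cfsg.Agent.Nodes.Coroot
open Cfsg.Lie Cfsg.Agent.ChevalleyStructure Cfsg.Agent.ChevalleyStructure.Elts Cfsg.Agent.ChevalleyStructure.NPerm
  Cfsg.Agent.ChevalleyStructure.CoxeterGeomTypes Cfsg.Agent.Nodes Cfsg.Agent.Nodes.RGDChev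
  Cfsg.Agent.KFacts.ChevTwo Cfsg.Agent.KFacts.ChevTwoInst Cfsg.Agent.KFacts.RgdChevCoord
  Cfsg.Agent.KFacts.RgdCent Cfsg.Agent.H737.SK.Gen Cfsg.Agent.H297.SK.Dich Cfsg.Agent.H297.SK.DichE6
  Cfsg.Agent.H297.SK.Tw Cfsg.Agent.H737.SK.O2 Cfsg.Agent.BpExc.EmbInst
open Cfsg.Agent.H129.TwE6Fr (gam coe_gam flip6 flip_vec flip6_apply sg_one_sq sg_mem)
open Cfsg.Agent.ChevalleyStructure.TwE6Basic (sg rho)

universe u

/-- the Coxeter system -/
noncomputable abbrev cs0 : CoxeterSystem CoxeterMatrix.E₆ CoxeterMatrix.E₆.Group := CoxeterMatrix.E₆.toCoxeterSystem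

variable {K : Type u} [Field K]

/-! ### The twisted Frobenius automorphism -/

theorem sg_sg {φ : K →+* K} (hφ2 : ∀ x, φ (φ x) = x) {g : GL chevE6.Idx K} (hg : g ∈ chevE6.group K) :
    sg φ (sg φ g) = g := by
  have h1 : chevE6.group K ≤ MonoidHom.eqLocus ((sg φ).comp (sg φ)) (MonoidHom.id _) := by
    rw [group_le_iff RGDTwE6.hp.inList]
    intro r hr t
    show ((sg φ).comp (sg φ)) _ = _
    rw [BpExc.EmbInst.sg_sq φ r hr t]
    show xG _ r (φ (φ t)) = _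
    rw [hφ2]
    rfl
  exact h1 hg

/-- the twisted Frobenius automorphism -/
noncomputable def FF (φ : K →+* K) (hφ2 : ∀ x, φ (φ x) = x) : MulAut ↥(chevE6.group K) where
  toFun g := ⟨sg φ g, sg_mem g.2⟩
  invFun g := ⟨sg φ g, sg_mem g.2⟩
  left_inv g := Subtype.ext (sg_sg hφ2 g.2)
  right_inv g := Subtype.ext (sg_sg hφ2 g.2)
  map_mul' _ _ := Subtype.ext (map_mul (sg φ) _ _)

theorem coe_FF {φ : K →+* K} (hφ2 : ∀ x, φ (φ x) = x) (g : ↥(chevE6.group K)) :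
    ((FF φ hφ2 g : ↥(chevE6.group K)) : GL chevE6.Idx K) = sg φ g := rfl

variable {W : Type*} [Group W] (cs : CoxeterSystem CoxeterMatrix.E₆ W)

theorem ep_one [CharP K 2] (r : Fin 72) : ((BpExc.EmbInst.ep r : ℤ) : K) = 1 := by
  have h3 : ((BpExc.EmbInst.ep r : ℤ) : K) * ((BpExc.EmbInst.ep r : ℤ) : K) = 1 := by
    rw [← Int.cast_mul, BpExc.EmbInst.eps_sq, Int.cast_one]
  rcases mul_self_eq_one_iff.1 h3 with h4 | h4
  · exact h4
  · rw [h4, CharTwo.neg_eq]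

theorem FF_eg [CharP K 2] {φ : K →+* K} (hφ2 : ∀ x, φ (φ x) = x) {x : Fin 6 → ℤ}
    (hx : IsRoot cs DichE6.hp.isCartan x) (u : K) :
    FF φ hφ2 (eg DichE6.hp K x u) = eg DichE6.hp K (flip6 x) (φ u) := by
  obtain ⟨r, hr, rfl⟩ := (isRoot_iff DichE6.hp cs x).1 hx
  have hr' : r < 72 := hr
  apply Subtype.ext
  rw [coe_FF, coe_eg, coe_eg, ev_vec DichE6.hp hr, flip_vec ⟨r, hr'⟩, ev_vec DichE6.hp (rho ⟨r, hr'⟩).2]
  have h1 : sg φ (xG RGDTwE6.hp.inList r u) = xG RGDTwE6.hp.inList (rho ⟨r, hr'⟩).val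
    (((BpExc.EmbInst.ep ⟨r, hr'⟩ : ℤ) : K) * φ u) := BpExc.EmbInst.sg_ep φ (⟨r, hr'⟩ : Fin 72) u
  refine h1.trans ?_
  rw [ep_one, one_mul]

theorem twF [CharP K 2] {φ : K →+* K} (hφ2 : ∀ x, φ (φ x) = x) :
    TwF cs DichE6.hp.isCartan (eg DichE6.hp K) (FF φ hφ2) sigE φ where
  invol := by decide
  cart := cart_sig
  map x hx u := by rw [FF_eg cs hφ2 hx, flip6_eq]
  phi := hφ2

/-! ### The embedding -/

/-- `²E₆(q)` as a subgroup of `E₆(q²)` -/
def L0 (K : Type u) [Field K] (q : ℕ) : Subgroup ↥(chevE6.group K) := (twistedE6 K q).subgroupOf (chevE6.group K)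

theorem mem_L0 {q : ℕ} {g : ↥(chevE6.group K)} : g ∈ L0 K q ↔ (g : GL chevE6.Idx K) ∈ twistedE6 K q := Iff.rfl

theorem coe_eg_sr (j : Fin 6) (t : K) :
    ((eg DichE6.hp K (sr j) t : ↥(chevE6.group K)) : GL chevE6.Idx K) = xG DichE6.hp.inList (chevE6.simple j) t := by
  rw [coe_eg, ev_sr DichE6.hp]

theorem coe_eg_neg (j : Fin 6) (t : K) :
    ((eg DichE6.hp K (-sr j) t : ↥(chevE6.group K)) : GL chevE6.Idx K) =
      xG DichE6.hp.inList (chevE6.neg (chevE6.simple j)) t := by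
  rw [coe_eg, ev_neg_sr DichE6.hp]

theorem word_mem {q : ℕ} {w : List (ℕ × K)} (hw : w ∈ e6Words K q) {g : GL chevE6.Idx K}
    (hg : g = (w.map fun p => xG DichE6.hp.inList p.1 p.2).prod) : g ∈ twistedE6 K q := by
  refine Subgroup.subset_closure ⟨w, hw, ?_⟩
  rw [hg]
  unfold ChevalleyDatum.wordMat
  rw [← Units.coeHom_apply, map_list_prod, List.map_map]
  rfl

/-- the single generators -/
theorem mem_one {q : ℕ} {t : K} (ht : t ^ q = t) {r : ℕ} (hr : r ∈ [e6p2, e6m2, e6p4, e6m4]) :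
    xG DichE6.hp.inList r t ∈ twistedE6 K q :=
  word_mem (w := [(r, t)]) (Or.inl ⟨t, ht, r, hr, rfl⟩) (by simp)

/-- the double generators -/
theorem mem_two {q : ℕ} (t : K) {rs : ℕ × ℕ}
    (hr : rs ∈ [(e6p1, e6p6), (e6m1, e6m6), (e6p3, e6p5), (e6m3, e6m5)]) :
    xG DichE6.hp.inList rs.1 t * xG DichE6.hp.inList rs.2 (t ^ q) ∈ twistedE6 K q :=
  word_mem (w := [(rs.1, t), (rs.2, t ^ q)]) (Or.inr ⟨t, rs, hr, rfl⟩) (by simp)

variable {q : ℕ}

theorem mem1 {t : K} (ht : t ^ q = t) {j : Fin 6} (hj : j = 1 ∨ j = 3) :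
    eg DichE6.hp K (sr j) t ∈ L0 K q ∧ eg DichE6.hp K (-sr j) t ∈ L0 K q := by
  rw [mem_L0, mem_L0, coe_eg_sr, coe_eg_neg]
  rcases hj with rfl | rfl
  · exact ⟨mem_one ht (r := 46) (by decide), mem_one ht (r := 25) (by decide)⟩
  · exact ⟨mem_one ht (r := 39) (by decide), mem_one ht (r := 32) (by decide)⟩

theorem mem05 (t : K) :
    eg DichE6.hp K (sr 0) t * eg DichE6.hp K (sr 5) (t ^ q) ∈ L0 K q ∧
      eg DichE6.hp K (-sr 0) t * eg DichE6.hp K (-sr 5) (t ^ q) ∈ L0 K q := by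
  rw [mem_L0, mem_L0, Subgroup.coe_mul, Subgroup.coe_mul, coe_eg_sr, coe_eg_neg, coe_eg_sr, coe_eg_neg]
  exact ⟨mem_two t (rs := (56, 36)) (by decide), mem_two t (rs := (15, 35)) (by decide)⟩

theorem mem24 (t : K) :
    eg DichE6.hp K (sr 2) t * eg DichE6.hp K (sr 4) (t ^ q) ∈ L0 K q ∧
      eg DichE6.hp K (-sr 2) t * eg DichE6.hp K (-sr 4) (t ^ q) ∈ L0 K q := by
  rw [mem_L0, mem_L0, Subgroup.coe_mul, Subgroup.coe_mul, coe_eg_sr, coe_eg_neg, coe_eg_sr, coe_eg_neg]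
  exact ⟨mem_two t (rs := (42, 37)) (by decide), mem_two t (rs := (29, 34)) (by decide)⟩

section Emb

variable [Fintype K] (hq : IsPrimePow q) (hK : Fintype.card K = q ^ 2)

include hq hK

theorem tw_le : twistedE6 K q ≤ chevE6.group K := H129.TwE6Fr.tw_le hq hK

/-- the embedding -/
noncomputable def io : ↥(twistedE6 K q) →* ↥(chevE6.group K) := Subgroup.inclusion (tw_le hq hK)

theorem coe_io (y : ↥(twistedE6 K q)) : ((io hq hK y : ↥(chevE6.group K)) : GL chevE6.Idx K) = y := rfl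

theorem io_inj : Function.Injective (io (K := K) hq hK) := Subgroup.inclusion_injective _

theorem io_mem (y : ↥(twistedE6 K q)) : io hq hK y ∈ L0 K q := y.2

theorem exists_io {g : ↥(chevE6.group K)} (hg : g ∈ L0 K q) : ∃ y, io hq hK y = g := ⟨⟨g, hg⟩, rfl⟩

theorem glMap_id (g : GL chevE6.Idx K) : GpExc.Field.glMap chevE6 (RingHom.id K) g = g := by
  apply Units.ext
  ext i j
  rfl

theorem le_fix {φ : K →+* K} (hφ : ∀ x, φ x = x ^ q) (hφ2 : ∀ x, φ (φ x) = x) : L0 K q ≤ FixA (FF φ hφ2) := by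
  intro g hg
  have h1 := twE6_fix (f := RingHom.id K) hq hK hφ (mem_L0.1 hg)
  rw [glMap_id hq hK] at h1
  apply Subtype.ext
  rw [coe_FF]
  exact h1.2

theorem normal {φ : K →+* K} (hφ : ∀ x, φ x = x ^ q) (hφ2 : ∀ x, φ (φ x) = x) {g : ↥(chevE6.group K)}
    (hg : g ∈ FixA (FF φ hφ2)) {z : ↥(chevE6.group K)} (hz : z ∈ L0 K q) : g * z * g⁻¹ ∈ L0 K q := by
  have h1 : sg φ (g : GL chevE6.Idx K) = g := by
    rw [← coe_FF hφ2]
    exact congrArg Subtype.val hg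
  have h2 := twE6_normalizer (f := RingHom.id K) hq hK hφ g.2 h1
  have h3 : (twistedE6 K q).map (GpExc.Field.glMap chevE6 (RingHom.id K)) = twistedE6 K q := by
    have h4 : GpExc.Field.glMap chevE6 (RingHom.id K) = MonoidHom.id (GL chevE6.Idx K) :=
      MonoidHom.ext fun g => glMap_id hq hK g
    rw [h4, Subgroup.map_id]
  rw [h3] at h2
  exact (Subgroup.mem_normalizer_iff.1 h2 _).1 hz

end Emb

/-! ### The data `PB` -/

section PB

/-- the conditions on `J` -/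
structure GJ (K : Type u) [Field K] (q : ℕ) (J : List (Fin 6)) : Prop where
  orth : Orth cs0 DichE6.hp.isCartan J
  perm : (J.map sigE).Perm J
  mem : ∀ c : K, c ^ q = c → pr J (fun j => eg DichE6.hp K (sr j) c) ∈ L0 K q ∧
    pr J (fun j => eg DichE6.hp K (-sr j) c) ∈ L0 K q

/-- the automorphism `τ` and the inner-diagonal automorphisms of `²E₆(q)` -/
structure Dic (K : Type u) [Field K] (q : ℕ) (H : Subgroup (MulAut ↥(twistedE6 K q)))
    (τ : MulAut ↥(twistedE6 K q)) : Prop where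
  sq : τ * τ = 1
  coe : ∀ y : ↥(twistedE6 K q), ((τ y : ↥(twistedE6 K q)) : GL chevE6.Idx K) =
    sg (RingHom.id K) (y : GL chevE6.Idx K)
  inn : ∀ k, MulAut.conj k ∈ H
  cube : ∀ δ ∈ H, ∃ k, δ ^ 3 = MulAut.conj k
  dich : ∀ α : MulAut ↥(twistedE6 K q), α * α = 1 → α ∈ H ∨ α * τ ∈ H

variable [Fintype K] [CharP K 2] (hq : IsPrimePow q) (hK : Fintype.card K = q ^ 2)

theorem S0 : KFacts.ChevTwo.Sys (rgd (K := K) DichE6.hp cs0 2) (eg DichE6.hp K) := sys DichE6.hp twoOK_E6 cs0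

theorem finW : Finite CoxeterMatrix.E₆.Group := finite_W DichE6.hp cs0

theorem hG1 : RGD.Sup (XX chevE6 6 K) {x | IsRoot cs0 DichE6.hp.isCartan x} = ⊤ := G1_eq_top DichE6.hp cs0

section mem

variable {J : List (Fin 6)} (hJ : GJ K q J)

include hJ

theorem GJ.nel_mem : pr J (fun j => nel (eg DichE6.hp K) (sr j)) ∈ L0 K q := by
  have := finW
  have S := S0 (K := K)
  obtain ⟨h1, h2⟩ := hJ.mem 1 (one_pow q)
  have h3 : pr J (fun j => nel (eg DichE6.hp K) (sr j)) =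
      pr J (fun j => eg DichE6.hp K (sr j) 1) * pr J (fun j => eg DichE6.hp K (-sr j) 1) *
        pr J (fun j => eg DichE6.hp K (sr j) 1) := by
    rw [pr_mul hJ.orth.nodup (commL S hJ.orth (fun j _ => e_mem S j _) fun j _ => e_neg_mem S j _),
      pr_mul hJ.orth.nodup (commL S hJ.orth (fun j _ => mul_mem (e_mem S j _) (e_neg_mem S j _)) fun j _ => e_mem S j _)]
    refine pr_congr fun j _ => ?_
    rw [nel_def]
  rw [h3]
  exact mul_mem (mul_mem h1 h2) h1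

theorem GJ.nc_mem {c : K} (hc : c ^ q = c) : pr J (fun j => nc (eg DichE6.hp K) (sr j) c) ∈ L0 K q := by
  have := finW
  have S := S0 (K := K)
  obtain ⟨h1, -⟩ := hJ.mem c hc
  obtain ⟨-, h2⟩ := hJ.mem c⁻¹ (by rw [inv_pow, hc])
  have h3 : pr J (fun j => nc (eg DichE6.hp K) (sr j) c) =
      pr J (fun j => eg DichE6.hp K (sr j) c) * pr J (fun j => eg DichE6.hp K (-sr j) c⁻¹) *
        pr J (fun j => eg DichE6.hp K (sr j) c) := by
    rw [pr_mul hJ.orth.nodup (commL S hJ.orth (fun j _ => e_mem S j _) fun j _ => e_neg_mem S j _),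
      pr_mul hJ.orth.nodup (commL S hJ.orth (fun j _ => mul_mem (e_mem S j _) (e_neg_mem S j _)) fun j _ => e_mem S j _)]
    refine pr_congr fun j _ => ?_
    rw [nc_def]
  rw [h3]
  exact mul_mem (mul_mem h1 h2) h1

theorem GJ.hel_mem {c : K} (hc : c ^ q = c) : pr J (fun j => hel (eg DichE6.hp K) (sr j) c) ∈ L0 K q := by
  have := finW
  have S := S0 (K := K)
  have h3 : pr J (fun j => hel (eg DichE6.hp K) (sr j) c) =
      pr J (fun j => nc (eg DichE6.hp K) (sr j) c) * pr J (fun j => nel (eg DichE6.hp K) (sr j)) := by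
    rw [pr_mul hJ.orth.nodup (commL S hJ.orth (fun j _ => H737.SK.Gen.nc_mem S j _) fun j _ => H737.SK.Gen.nel_mem S j)]
    refine pr_congr fun j _ => ?_
    rw [hel_def]
  rw [h3]
  exact mul_mem (hJ.nc_mem hc) hJ.nel_mem

theorem GJ.xl_mem : pr J (xl (eg DichE6.hp K)) ∈ L0 K q := by
  have := finW
  have S := S0 (K := K)
  obtain ⟨h1, h2⟩ := hJ.mem 1 (one_pow q)
  have h3 : pr J (xl (eg DichE6.hp K)) =
      pr J (fun j => eg DichE6.hp K (sr j) 1) * pr J (fun j => eg DichE6.hp K (-sr j) 1) := by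
    rw [pr_mul hJ.orth.nodup (commL S hJ.orth (fun j _ => e_mem S j _) fun j _ => e_neg_mem S j _)]
    exact pr_congr fun j _ => rfl
  rw [h3]
  exact mul_mem h1 h2

/-- the conjugating element -/
theorem GJ.k_mem : pr J (fun j => eg DichE6.hp K (sr j) 1 * nel (eg DichE6.hp K) (sr j)) ∈ L0 K q := by
  have := finW
  have S := S0 (K := K)
  obtain ⟨h1, -⟩ := hJ.mem 1 (one_pow q)
  have h3 : pr J (fun j => eg DichE6.hp K (sr j) 1 * nel (eg DichE6.hp K) (sr j)) =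
      pr J (fun j => eg DichE6.hp K (sr j) 1) * pr J (fun j => nel (eg DichE6.hp K) (sr j)) := by
    rw [pr_mul hJ.orth.nodup (commL S hJ.orth (fun j _ => e_mem S j _) fun j _ => H737.SK.Gen.nel_mem S j)]
  rw [h3]
  exact mul_mem h1 hJ.nel_mem

end mem

/-! pulling back -/

include hq hK in
theorem pull {D : Subgroup ↥(chevE6.group K)}
    (H : ∀ N : Subgroup ↥(chevE6.group K), IsPGroup 2 N → N ≤ L0 K q ⊓ D →
      (∀ g ∈ L0 K q ⊓ D, ∀ z ∈ N, g * z * g⁻¹ ∈ N) → N = ⊥)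
    {N : Subgroup ↥(twistedE6 K q)} (hNp : IsPGroup 2 N) (hN : ∀ z ∈ N, io hq hK z ∈ D)
    (hn : ∀ g, io hq hK g ∈ D → ∀ z ∈ N, g * z * g⁻¹ ∈ N) : N = ⊥ := by
  have h2 : N.map (io hq hK) = ⊥ := by
    apply H _ (hNp.map _)
    · rintro _ ⟨z, hz, rfl⟩
      exact ⟨io_mem hq hK z, hN z hz⟩
    · rintro g ⟨h1, h2⟩ _ ⟨z, hz, rfl⟩
      obtain ⟨g, rfl⟩ := exists_io hq hK h1
      exact ⟨g * z * g⁻¹, hn g h2 z hz, by rw [map_mul, map_mul, map_inv]⟩
  rwa [Subgroup.map_eq_bot_iff_of_injective _ (io_inj hq hK)] at h2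

theorem Dic.io {H : Subgroup (MulAut ↥(twistedE6 K q))} {τ : MulAut ↥(twistedE6 K q)} (hD : Dic K q H τ)
    (y : ↥(twistedE6 K q)) : TwE.io hq hK (τ y) = gam K (TwE.io hq hK y) := by
  apply Subtype.ext
  rw [coe_io, coe_gam, coe_io, hD.coe]

theorem gra1 {W : Type*} [Group W] (cs : CoxeterSystem CoxeterMatrix.E₆ W) :
    Gra cs DichE6.hp.isCartan (eg DichE6.hp K) (1 : MulAut ↥(chevE6.group K)) (fun i => i) where
  invol _ := rfl
  cart _ _ := rfl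
  map _ _ _ := rfl

theorem exists_phi {K : Type u} [Field K] [Fintype K] {q : ℕ} (hq : IsPrimePow q) (hK : Fintype.card K = q ^ 2) :
    ∃ φ : K →+* K, (∀ x, φ x = x ^ q) ∧ ∀ x, φ (φ x) = x := by
  obtain ⟨φ, h1, h2⟩ := Cfsg.Agent.ChevalleyStructure.TwE6Basic.exists_frob hq hK
  exact ⟨φ, h1, fun x => by rw [h1, h1]; exact h2 x⟩

section

variable {J : List (Fin 6)} (hJ : GJ K q J) {H : Subgroup (MulAut ↥(twistedE6 K q))}
  {τ : MulAut ↥(twistedE6 K q)} (hD : Dic K q H τ)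

include hJ hD

/-- the common part of the two constructions -/
theorem pb_aux {v x : ↥(twistedE6 K q)} (hx : Odd (orderOf x)) (hinv : v * x * v⁻¹ = x⁻¹)
    (hγv : gam K (io hq hK v) = io hq hK v) (hγx : gam K (io hq hK x) = io hq hK x)
    (h1 : ∀ N : Subgroup ↥(chevE6.group K), IsPGroup 2 N → N ≤ L0 K q ⊓ (Subgroup.centralizer {io hq hK v} ⊓
        Subgroup.centralizer {io hq hK x} ⊓ FixA 1) →
      (∀ g ∈ L0 K q ⊓ (Subgroup.centralizer {io hq hK v} ⊓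
        Subgroup.centralizer {io hq hK x} ⊓ FixA 1), ∀ z ∈ N, g * z * g⁻¹ ∈ N) → N = ⊥)
    (h2 : ∀ N : Subgroup ↥(chevE6.group K), IsPGroup 2 N → N ≤ L0 K q ⊓ (Subgroup.centralizer {io hq hK v} ⊓
        Subgroup.centralizer {io hq hK x} ⊓ FixA (gam K)) →
      (∀ g ∈ L0 K q ⊓ (Subgroup.centralizer {io hq hK v} ⊓
        Subgroup.centralizer {io hq hK x} ⊓ FixA (gam K)), ∀ z ∈ N, g * z * g⁻¹ ∈ N) → N = ⊥) :
    PB v x τ H := by
  have hcen : ∀ y z : ↥(twistedE6 K q), io hq hK z ∈ Subgroup.centralizer {io hq hK y} ↔ z * y = y * z := by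
    intro y z
    rw [Subgroup.mem_centralizer_singleton_iff, ← map_mul, ← map_mul]
    exact (io_inj hq hK).eq_iff
  have hfix : ∀ z : ↥(twistedE6 K q), io hq hK z ∈ FixA (gam K) ↔ τ z = z := by
    intro z
    rw [mem_FixA, ← hD.io hq hK]
    exact (io_inj hq hK).eq_iff
  refine ⟨hx, hinv, hD.sq, ?_, ?_, ?_, ?_, hD.inn, hD.cube, fun α hα _ => hD.dich α hα⟩
  · exact (hfix v).1 hγv
  · exact (hfix x).1 hγx
  · intro N hNp hNc hNn
    refine pull hq hK h1 hNp ?_ ?_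
    · intro z hz
      obtain ⟨h3, h4⟩ := H282.SK.mem_cc.1 (hNc hz)
      exact ⟨⟨(hcen _ _).2 h3, (hcen _ _).2 h4⟩, rfl⟩
    · rintro g ⟨⟨h3, h4⟩, -⟩ z hz
      exact hNn g (H282.SK.mem_cc.2 ⟨(hcen _ _).1 h3, (hcen _ _).1 h4⟩) z hz
  · intro N hNp hNc hNτ hNn
    refine pull hq hK h2 hNp ?_ ?_
    · intro z hz
      obtain ⟨h3, h4⟩ := H282.SK.mem_cc.1 (hNc hz)
      exact ⟨⟨(hcen _ _).2 h3, (hcen _ _).2 h4⟩, (hfix z).2 (hNτ z hz)⟩
    · rintro g ⟨⟨h3, h4⟩, h5⟩ z hz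
      exact hNn g (H282.SK.mem_cc.2 ⟨(hcen _ _).1 h3, (hcen _ _).1 h4⟩) ((hfix g).1 h5) z hz

/-- **`PB`, `q ≥ 4`** -/
theorem pb_big {l : ℕ} (hl : l.Prime) (hl2 : l ≠ 2) {c : K} (hc : c ≠ 0) (hc1 : c ≠ 1)
    (hcl : c ^ l = 1) (hcq : c ^ q = c) {v x : ↥(twistedE6 K q)}
    (hv : io hq hK v = pr J fun j => nel (eg DichE6.hp K) (sr j))
    (hx : io hq hK x = pr J fun j => hel (eg DichE6.hp K) (sr j) c) : PB v x τ H := by
  have := finW
  have S := S0 (K := K)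
  have hG1 := hG1 (K := K)
  have hN := noCent_E6 (K := K) cs0
  obtain ⟨φ, hφ, hφ2⟩ := exists_phi hq hK
  have hF := twF cs0 hφ2
  have hγ := gra_E6 (K := K) cs0
  refine pb_aux hq hK hJ hD ?_ ?_ ?_ ?_ ?_ ?_
  · have h2 : orderOf x ∣ l := by
      refine orderOf_dvd_of_pow_eq_one (io_inj hq hK ?_)
      rw [map_pow, hx, map_one, tJ_pow S hJ.orth hG1 hN hc, hcl,
        pr_congr (g := fun _ => 1) fun j _ => hel_one S hG1 hN j, pr_one]
    exact Odd.of_dvd_nat (hl.odd_of_ne_two hl2) h2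
  · apply io_inj hq hK
    rw [map_mul, map_mul, map_inv, map_inv, hv, hx, nJ_tJ S hJ.orth hG1 hN hc, tJ_inv S hJ.orth hG1 hN hc]
  · rw [hv]
    exact hγ.pr S hJ.orth hJ.perm (fun j _ => H737.SK.Gen.nel_mem S j) fun j => hγ.nel j
  · rw [hx]
    exact hγ.pr S hJ.orth hJ.perm (fun j _ => hel_memS S j c) fun j => hγ.hel j c
  · intro N h1 h2 h3
    rw [hv, hx] at h2 h3
    refine o2_sub (le_fix hq hK hφ hφ2) (fun g hg z hz => normal hq hK hφ hφ2 hg hz) ?_ h1 h2 h3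
    intro N h4 h5 h6
    exact o2_tw_big S hJ.orth hG1 hN hF hJ.perm (gra1 cs0) (by rw [List.map_id'])
      (fun _ => rfl) hl hl2 hc hc1 hcl (by rw [hφ, hcq]) h4 h5 h6
  · intro N h1 h2 h3
    rw [hv, hx] at h2 h3
    refine o2_sub (le_fix hq hK hφ hφ2) (fun g hg z hz => normal hq hK hφ hφ2 hg hz) ?_ h1 h2 h3
    intro N h4 h5 h6
    exact o2_tw_big S hJ.orth hG1 hN hF hJ.perm hγ hJ.perm
      (fun _ => rfl) hl hl2 hc hc1 hcl (by rw [hφ, hcq]) h4 h5 h6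

/-- **`PB`, `q = 2`** -/
theorem pb_two (hq2 : q = 2) {ζ : K} (hζ : ζ ^ 2 = ζ + 1) {v x : ↥(twistedE6 K q)}
    (hv : io hq hK v = pr J fun j => nel (eg DichE6.hp K) (sr j))
    (hx : io hq hK x = pr J (xl (eg DichE6.hp K))) : PB v x τ H := by
  have := finW
  have S := S0 (K := K)
  have hG1 := hG1 (K := K)
  have hN := noCent_E6 (K := K) cs0
  obtain ⟨φ, hφ, hφ2⟩ := exists_phi hq hK
  have hF := twF cs0 hφ2
  have hγ := gra_E6 (K := K) cs0
  have hφζ : φ ζ = ζ ^ 2 := by rw [hφ, hq2]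
  refine pb_aux hq hK hJ hD ?_ ?_ ?_ ?_ ?_ ?_
  · have hζ0 : ζ ≠ 0 := by
      rintro rfl
      rw [zero_pow two_ne_zero, zero_add] at hζ
      exact zero_ne_one hζ
    have h2K : (2 : K) = 0 := by
      have := S.data.two (1 : K)
      rwa [one_add_one_eq_two] at this
    have hζ3 : ζ ^ 3 = 1 := by linear_combination (ζ + 1) * hζ + ζ * h2K
    have h2 : (pr J (xl (eg DichE6.hp K))) ^ 3 = 1 := by
      have h3 := alJ_xlJ S hJ.orth hG1 hN hζ
      have h4 := alJ_sq S hJ.orth ζ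
      have h5 : (pr J (al (eg DichE6.hp K) ζ))⁻¹ = pr J (al (eg DichE6.hp K) ζ) := inv_eq_of_mul_eq_one_right h4
      have h6 : pr J (xl (eg DichE6.hp K)) = pr J (al (eg DichE6.hp K) ζ) *
          pr J (fun j => hel (eg DichE6.hp K) (sr j) ζ) * (pr J (al (eg DichE6.hp K) ζ))⁻¹ := by
        rw [← h3, h5]
        calc pr J (xl (eg DichE6.hp K)) = (pr J (al (eg DichE6.hp K) ζ) * pr J (al (eg DichE6.hp K) ζ)) *
              pr J (xl (eg DichE6.hp K)) * (pr J (al (eg DichE6.hp K) ζ) * pr J (al (eg DichE6.hp K) ζ)) := by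
              rw [h4, one_mul, mul_one]
          _ = _ := by group
      rw [h6, conj_pow, tJ_pow S hJ.orth hG1 hN hζ0, hζ3,
        pr_congr (g := fun _ => 1) fun j _ => hel_one S hG1 hN j, pr_one, mul_one, mul_inv_cancel]
    have h3 : x ^ 3 = 1 := by
      apply io_inj hq hK
      rw [map_pow, hx, h2, map_one]
    exact Odd.of_dvd_nat (by decide) (orderOf_dvd_of_pow_eq_one h3)
  · apply io_inj hq hK
    rw [map_mul, map_mul, map_inv, map_inv, hv, hx, nJ_xlJ S hJ.orth]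
  · rw [hv]
    exact hγ.pr S hJ.orth hJ.perm (fun j _ => H737.SK.Gen.nel_mem S j) fun j => hγ.nel j
  · rw [hx]
    refine hγ.pr S hJ.orth hJ.perm (fun j _ => H737.SK.Gen.xl_mem S j) fun j => ?_
    unfold xl
    rw [map_mul, hγ.map _ (isRoot_sr cs0 _ j), hγ.map _ (isRoot_sr cs0 _ j).neg, sr_comp hγ.invol,
      neg_comp hγ.invol]
  · intro N h1 h2 h3
    rw [hv, hx] at h2 h3
    refine o2_sub (le_fix hq hK hφ hφ2) (fun g hg z hz => normal hq hK hφ hφ2 hg hz) ?_ h1 h2 h3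
    intro N h4 h5 h6
    exact o2_tw_two S hJ.orth hG1 hN hF hJ.perm (gra1 cs0) (by rw [List.map_id'])
      (fun _ => rfl) hζ hφζ h4 h5 h6
  · intro N h1 h2 h3
    rw [hv, hx] at h2 h3
    refine o2_sub (le_fix hq hK hφ hφ2) (fun g hg z hz => normal hq hK hφ hφ2 hg hz) ?_ h1 h2 h3
    intro N h4 h5 h6
    exact o2_tw_two S hJ.orth hG1 hN hF hJ.perm hγ hJ.perm
      (fun _ => rfl) hζ hφζ h4 h5 h6

omit hJ in
/-- `Good v` from an element moved by `γ` -/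
theorem good_of {v x : ↥(twistedE6 K q)} (P : PB v x τ H) {z : ↥(chevE6.group K)} (hz : z ∈ L0 K q)
    (hzv : z * io hq hK v = io hq hK v * z) (hzx : z * io hq hK x = io hq hK x * z) (hne : gam K z ≠ z)
    (hZ : Subgroup.center ↥(twistedE6 K q) = ⊥) : H282.SK.Good v := by
  obtain ⟨y, rfl⟩ := exists_io hq hK hz
  rw [← map_mul, ← map_mul] at hzv hzx
  refine P.good hZ (z := y) (H282.SK.mem_cc.2 ⟨io_inj hq hK hzv, io_inj hq hK hzx⟩) fun h1 => hne ?_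
  rw [← hD.io hq hK, h1]

end

end PB

end Cfsg.Agent.H297.SK.TwE
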