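import Cfsg.Agent.H737.SK.TwE6El

/-!
# S3010, `²E₆(2)`: the explicit elements for `J = [0, 5]` (helper297)

In `C(v)`, `v = e (sr 0) 1 * e (sr 5) 1` (up to conjugation): the folded root elements of
`{-sr 2, -sr 4}` and `{sr 0 + sr 2, sr 4 + sr 5}`.
-/

set_option autoImplicit false
set_option linter.unusedSectionVars false

namespace Cfsg.Agent.H297.SK.TwE5C

open CoxeterSystem Cfsg.Agent.ChevalleyStructure.CoxeterGeom Cfsg.Agent.Tits.Roots Cfsg.Agent.Tits.Core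
  Cfsg.Agent.Tits.Exchange Cfsg.Agent.Nodes.Reps Cfsg.Agent.Nodes.BNOf Cfsg.Agent.Nodes.Coroot
  Cfsg.Agent.KFacts.RgdField Cfsg.Agent.KFacts.RgdCent Cfsg.Agent.KFacts.ChevTwo Cfsg.Agent.KFacts.RgdSys
  Cfsg.Agent.KFacts.ChevTwoInst Cfsg.Agent.H737.SK.O2 Cfsg.Agent.H282.SK Cfsg.Agent.H737.SK.Gen
  Cfsg.Agent.H737.SK.Chev Cfsg.Agent.H297.SK Cfsg.Agent.H297.SK.Dich Cfsg.Agent.Nodes.OppDec Cfsg.Agent.Nodes.Comb
  Cfsg.Agent.KFacts.RgdOpp
open Cfsg.Lie Cfsg.Agent.ChevalleyStructure Cfsg.Agent.ChevalleyStructure.Elts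
  Cfsg.Agent.ChevalleyStructure.RootVec Cfsg.Agent.ChevalleyStructure.FieldIso
  Cfsg.Agent.ChevalleyStructure.CoxeterGeomTypes
open Cfsg.Agent.Nodes Cfsg.Agent.Nodes.RGDChev
open Cfsg.Agent.H129.TwE6Fr (gam)
open Cfsg.Agent.H297.SK.DichE6 (hp)
open Cfsg.Agent.H737.SK.E6

universe u

variable {W Y K : Type*} [Group W] [Group Y] [Field K] {M : CoxeterMatrix (Fin 6)}
variable {cs : CoxeterSystem M W} {h : IsCartan M A6} {e : (Fin 6 → ℤ) → K → Y}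
  {T : Subgroup Y} {n : Fin 6 → Y} {X : (Fin 6 → ℤ) → Subgroup Y}
variable [Finite W] {R : RGD cs h 2 T n X} (S : Sys R e) {q : ℕ} {L : Subgroup Y}

include S

/-- `J = [0, 5]`: two elements of `C_L(v)` whose "commutators" with `γ` do not commute. -/
theorem noncomm_05_tw {γ : MulAut Y} (hγ : Gra cs h e γ s6) (t : Tw e q L) {ζ : K} (hζ : ζ + ζ ^ q = 1)
    (hgL : (pr [(0 : Fin 6), 5] fun j => e (sr j) 1 * nel e (sr j)) ∈ L) : ∃ c₁ ∈ L, ∃ c₂ ∈ L,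
    c₁ * (pr [(0 : Fin 6), 5] fun j => nel e (sr j)) = (pr [(0 : Fin 6), 5] fun j => nel e (sr j)) * c₁ ∧
    c₂ * (pr [(0 : Fin 6), 5] fun j => nel e (sr j)) = (pr [(0 : Fin 6), 5] fun j => nel e (sr j)) * c₂ ∧
    (c₁ * (γ c₁)⁻¹) * (c₂ * (γ c₂)⁻¹) ≠ (c₂ * (γ c₂)⁻¹) * (c₁ * (γ c₁)⁻¹) := by
  have hJ : Orth cs h [(0 : Fin 6), 5] := by
    refine ⟨by decide, ?_⟩
    have key : ∀ i ∈ [(0 : Fin 6), 5], ∀ j ∈ [(0 : Fin 6), 5], i ≠ j → pairing A6 j (sr i) = 0 := by decide +kernel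
    intro i hi j hj hij
    rw [cpr_sr]
    exact key i hi j hj hij
  obtain ⟨ζ', hζ'⟩ : ∃ ζ', ζ' = ζ ^ q := ⟨_, rfl⟩
  -- roots
  have wa : ([2] : List (Fin 6)).foldr (step A6) (sr 0) = ![1, 0, 1, 0, 0, 0] := by decide +kernel
  have wb : ([4] : List (Fin 6)).foldr (step A6) (sr 5) = ![0, 0, 0, 0, 1, 1] := by decide +kernel
  have ra : IsRoot cs h ![1, 0, 1, 0, 0, 0] := isRoot_word wa
  have rb : IsRoot cs h ![0, 0, 0, 0, 1, 1] := isRoot_word wb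
  have r0 := isRoot_sr cs h (0 : Fin 6)
  have r2 := (isRoot_sr cs h (2 : Fin 6)).neg
  have r4 := (isRoot_sr cs h (4 : Fin 6)).neg
  have r5 := isRoot_sr cs h (5 : Fin 6)
  have w2 : ([2] : List (Fin 6)).foldr (step A6) (sr 2) = -sr 2 := by decide +kernel
  have w4 : ([4] : List (Fin 6)).foldr (step A6) (sr 4) = -sr 4 := by decide +kernel
  obtain ⟨g, hg⟩ : ∃ g, g = pr [(0 : Fin 6), 5] fun j => e (sr j) 1 * nel e (sr j) := ⟨_, rfl⟩
  have hγg : γ g = g := by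
    rw [hg]
    refine hγ.pr S hJ (by decide) (fun j _ => mul_mem (e_mem S j _) (nel_mem S j)) fun j => ?_
    rw [map_mul, hγ.nel, hγ.map _ (isRoot_sr cs h j), sr_comp hγ.invol]
  have hv : (pr [(0 : Fin 6), 5] fun j => nel e (sr j)) = g * (e (sr 0) 1 * e (sr 5) 1) * g⁻¹ := by
    have h1 : (pr [(0 : Fin 6), 5] fun j => e (sr j) 1) = e (sr 0) 1 * e (sr 5) 1 := by
      rw [pr_cons, pr_cons, pr_nil, mul_one]
    rw [nJ_conj S hJ, hg, h1]
  have hgr : ∀ c, c * (e (sr 0) 1 * e (sr 5) 1) = (e (sr 0) 1 * e (sr 5) 1) * c →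
      (g * c * g⁻¹) * (pr [(0 : Fin 6), 5] fun j => nel e (sr j)) =
        (pr [(0 : Fin 6), 5] fun j => nel e (sr j)) * (g * c * g⁻¹) := by
    intro c hc
    rw [hv]
    calc (g * c * g⁻¹) * (g * (e (sr 0) 1 * e (sr 5) 1) * g⁻¹) = g * (c * (e (sr 0) 1 * e (sr 5) 1)) * g⁻¹ := by group
      _ = g * ((e (sr 0) 1 * e (sr 5) 1) * c) * g⁻¹ := by rw [hc]
      _ = _ := by group
  have g4 : ∀ a, γ (e (-sr 4) a) = e (-sr 2) a := by
    intro a
    rw [hγ.map _ r4]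
    congr 1
    decide
  have g2 : ∀ a, γ (e (-sr 2) a) = e (-sr 4) a := by
    intro a
    rw [hγ.map _ r2]
    congr 1
    decide
  have ga : ∀ a, γ (e ![1, 0, 1, 0, 0, 0] a) = e ![0, 0, 0, 0, 1, 1] a := by
    intro a
    rw [hγ.map _ ra]
    congr 1
    decide
  have gb : ∀ a, γ (e ![0, 0, 0, 0, 1, 1] a) = e ![1, 0, 1, 0, 0, 0] a := by
    intro a
    rw [hγ.map _ rb]
    congr 1
    decide
  -- commutation rules
  have c42 := cm S r4 r2 (le_of_eq (Eq.symm (cpr_word w2 (by decide +kernel))))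
  have cab := cm S ra rb (le_of_eq (Eq.symm (cpr_word wb (by decide +kernel))))
  -- `z γ(z)⁻¹`
  have red : ∀ {x y : Fin 6 → ℤ}, IsRoot cs h x → IsRoot cs h y → (∀ a b, e x a * e y b = e y b * e x a) →
      (e x ζ * e y ζ') * (e y ζ * e x ζ')⁻¹ = e x 1 * e y 1 := by
    intro x y hx hy hc
    rw [mul_inv_rev, S.data.inv hx, S.data.inv hy]
    have h1 : ζ + ζ' = 1 := by rw [hζ', hζ]
    calc e x ζ * e y ζ' * (e x ζ' * e y ζ) = e x ζ * (e y ζ' * e x ζ') * e y ζ := by group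
      _ = e x ζ * (e x ζ' * e y ζ') * e y ζ := by rw [hc]
      _ = (e x ζ * e x ζ') * (e y ζ' * e y ζ) := by group
      _ = e x 1 * e y 1 := by rw [← S.data.add _ hx, ← S.data.add _ hy, add_comm ζ' ζ, h1]
  refine ⟨g * (e (-sr 2) ζ * e (-sr 4) ζ') * g⁻¹, ?_,
    g * (e ![1, 0, 1, 0, 0, 0] ζ * e ![0, 0, 0, 0, 1, 1] ζ') * g⁻¹, ?_, hgr _ ?_, hgr _ ?_, ?_⟩
  · rw [hg, hζ']
    exact mul_mem (mul_mem hgL (t.m2 ζ)) (inv_mem hgL)
  · rw [hg, hζ']
    refine mul_mem (mul_mem hgL ?_) (inv_mem hgL)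
    refine pair_word S (ω := [2, 4]) ?_ r0 r5 (by decide +kernel) (by decide +kernel) (t.p0 ζ)
    rw [pr_cons, pr_cons, pr_nil, mul_one]
    exact n24 S t
  · have h1 := cm S r4 r0 (le_of_eq (Eq.symm (by rw [cpr_sr]; decide +kernel))) ζ' 1
    have h2 := cm S r4 r5 (by rw [cpr_sr]; decide +kernel) ζ' 1
    have h3 := cm S r2 r0 (by rw [cpr_sr]; decide +kernel) ζ 1
    have h4 := cm S r2 r5 (le_of_eq (Eq.symm (by rw [cpr_sr]; decide +kernel))) ζ 1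
    have k1 : Commute (e (-sr 4) ζ') (e (sr 0) 1 * e (sr 5) 1) := (show Commute _ _ from h1).mul_right h2
    have k2 : Commute (e (-sr 2) ζ) (e (sr 0) 1 * e (sr 5) 1) := (show Commute _ _ from h3).mul_right h4
    exact (k2.mul_left k1).eq
  · have h1 := cm S rb r0 (le_of_eq (Eq.symm (by rw [cpr_sr]; decide +kernel))) ζ' 1
    have h2 := cm S rb r5 (by rw [cpr_sr]; decide +kernel) ζ' 1
    have h3 := cm S ra r0 (by rw [cpr_sr]; decide +kernel) ζ 1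
    have h4 := cm S ra r5 (le_of_eq (Eq.symm (by rw [cpr_sr]; decide +kernel))) ζ 1
    have k1 : Commute (e ![0, 0, 0, 0, 1, 1] ζ') (e (sr 0) 1 * e (sr 5) 1) := (show Commute _ _ from h1).mul_right h2
    have k2 : Commute (e ![1, 0, 1, 0, 0, 0] ζ) (e (sr 0) 1 * e (sr 5) 1) := (show Commute _ _ from h3).mul_right h4
    exact (k2.mul_left k1).eq
  · have e1 : γ (g * (e (-sr 2) ζ * e (-sr 4) ζ') * g⁻¹) = g * (e (-sr 4) ζ * e (-sr 2) ζ') * g⁻¹ := by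
      rw [map_mul, map_mul, map_inv, hγg, map_mul, g2, g4]
    have e2 : γ (g * (e ![1, 0, 1, 0, 0, 0] ζ * e ![0, 0, 0, 0, 1, 1] ζ') * g⁻¹) =
        g * (e ![0, 0, 0, 0, 1, 1] ζ * e ![1, 0, 1, 0, 0, 0] ζ') * g⁻¹ := by
      rw [map_mul, map_mul, map_inv, hγg, map_mul, ga, gb]
    rw [e1, e2]
    intro h0
    -- the reduced equation
    have h1 : (e (-sr 2) 1 * e (-sr 4) 1) * (e ![1, 0, 1, 0, 0, 0] 1 * e ![0, 0, 0, 0, 1, 1] 1) =
        (e ![1, 0, 1, 0, 0, 0] 1 * e ![0, 0, 0, 0, 1, 1] 1) * (e (-sr 2) 1 * e (-sr 4) 1) := by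
      have h2 : ∀ a b c d : Y, g * a * g⁻¹ * (g * b * g⁻¹)⁻¹ * (g * c * g⁻¹ * (g * d * g⁻¹)⁻¹) =
          g * ((a * b⁻¹) * (c * d⁻¹)) * g⁻¹ := fun a b c d => by group
      rw [h2, h2] at h0
      have h3 := mul_left_cancel (mul_right_cancel h0)
      rw [red r2 r4 fun a b => (c42 b a).symm, red ra rb cab] at h3
      exact h3
    -- commutation rules
    have c2a : e (-sr 2) 1 * e ![1, 0, 1, 0, 0, 0] 1 = e (sr 0) 1 * (e ![1, 0, 1, 0, 0, 0] 1 * e (-sr 2) 1) :=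
      mul_of_neg S r2 ra (cpr_word wa (by decide +kernel)) (cpr_word w2 (by decide +kernel)) (by decide)
    have c4b : e (-sr 4) 1 * e ![0, 0, 0, 0, 1, 1] 1 = e (sr 5) 1 * (e ![0, 0, 0, 0, 1, 1] 1 * e (-sr 4) 1) :=
      mul_of_neg S r4 rb (cpr_word wb (by decide +kernel)) (cpr_word w4 (by decide +kernel)) (by decide)
    have c40 := comm_of_zero S r4 r0 (le_of_eq (Eq.symm (by rw [cpr_sr]; decide +kernel)))
    have c4a := comm_of_zero S r4 ra (le_of_eq (Eq.symm (cpr_word wa (by decide +kernel))))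
    have c2b := comm_of_zero S r2 rb (le_of_eq (Eq.symm (cpr_word wb (by decide +kernel))))
    have ca5 := comm_of_zero S ra r5 (le_of_eq (Eq.symm (by rw [cpr_sr]; decide +kernel)))
    have c42 := c42 1 1
    obtain ⟨p, hp⟩ : ∃ p, p = e (-sr 4) (1 : K) := ⟨_, rfl⟩
    obtain ⟨q, hq⟩ : ∃ q, q = e (-sr 2) (1 : K) := ⟨_, rfl⟩
    obtain ⟨a, ha⟩ : ∃ a, a = e ![1, 0, 1, 0, 0, 0] (1 : K) := ⟨_, rfl⟩
    obtain ⟨b, hb⟩ : ∃ b, b = e ![0, 0, 0, 0, 1, 1] (1 : K) := ⟨_, rfl⟩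
    obtain ⟨x, hx⟩ : ∃ x, x = e (sr 0) (1 : K) := ⟨_, rfl⟩
    obtain ⟨y, hy⟩ : ∃ y, y = e (sr 5) (1 : K) := ⟨_, rfl⟩
    rw [← hp, ← hq, ← ha, ← hb] at h1
    rw [← hq, ← ha, ← hx] at c2a
    rw [← hp, ← hb, ← hy] at c4b
    rw [← hp, ← hx] at c40
    rw [← hp, ← ha] at c4a
    rw [← hq, ← hb] at c2b
    rw [← ha, ← hy] at ca5
    rw [← hp, ← hq] at c42
    rw [← c42] at h1
    have h3 : p * q * (a * b) = x * y * (a * b * (p * q)) := by
      calc p * q * (a * b) = p * (q * a) * b := by group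
        _ = p * (x * (a * q)) * b := by rw [c2a]
        _ = (p * x) * a * (q * b) := by group
        _ = (x * p) * a * (b * q) := by rw [c40, c2b]
        _ = x * (p * a) * b * q := by group
        _ = x * (a * p) * b * q := by rw [c4a]
        _ = x * a * (p * b) * q := by group
        _ = x * a * (y * (b * p)) * q := by rw [c4b]
        _ = x * (a * y) * b * p * q := by group
        _ = x * (y * a) * b * p * q := by rw [ca5]
        _ = x * y * (a * b * (p * q)) := by group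
    rw [h3] at h1
    have h4 : x * y = 1 := mul_eq_right.1 h1
    have h5 : x = y := by
      have h6 : y * y = 1 := by rw [hy]; exact S.data.sq r5 1
      calc x = x * y * y⁻¹ := by group
        _ = y⁻¹ := by rw [h4, one_mul]
        _ = y := inv_eq_of_mul_eq_one_right h6
    rw [hx, hy] at h5
    exact ne_sr S (show (0 : Fin 6) ≠ 5 by decide) h5.symm

end Cfsg.Agent.H297.SK.TwE5C
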