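import Cfsg.Agent.H737.SK.Gra

/-!
# S3010, characteristic two: twisted Frobenius automorphisms as frame automorphisms (helper297)

`TwF cs h e F σ φ` : `F (e x a) = e (x ∘ σ) (φ a)`, `σ` an involutory diagram symmetry, `φ² = 1`.

* `o2_tw_big`, `o2_tw_two` : `Fix F ∩ C(v) ∩ C(x) ∩ Fix γ` has no nontrivial normal 2-subgroup;
* `o2_sub` : passage to a normal subgroup of `Fix F`.
-/

set_option autoImplicit false
set_option linter.unusedSectionVars false

namespace Cfsg.Agent.H297.SK.Tw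

open CoxeterSystem Cfsg.Agent.ChevalleyStructure.CoxeterGeom Cfsg.Agent.Tits.Roots Cfsg.Agent.Tits.Core
  Cfsg.Agent.Tits.Exchange Cfsg.Agent.Nodes.Reps Cfsg.Agent.Nodes.BNOf Cfsg.Agent.Nodes.StabComb
  Cfsg.Agent.Nodes.Bruhat Cfsg.Agent.Nodes.OppDec Cfsg.Agent.Nodes.LeviDec Cfsg.Agent.Nodes.NormalForm
  Cfsg.Agent.Nodes.Coroot
  Cfsg.Agent.KFacts.RgdField Cfsg.Agent.BpExc.TorCent Cfsg.Agent.KFacts.RgdOpp Cfsg.Agent.KFacts.RgdCent
  Cfsg.Agent.KFacts.ChevTwo Cfsg.Agent.KFacts.RgdSys Cfsg.Agent.H737.SK.O2 Cfsg.Agent.H282.SK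
  Cfsg.Agent.KFacts.RgdRigid Cfsg.Agent.H737.SK.Gen

/-! ### passage to a normal subgroup -/

theorem o2_sub {G : Type*} [Group G] [Finite G] {L Fx D : Subgroup G} (hL : L ≤ Fx)
    (hn : ∀ g ∈ Fx, ∀ z ∈ L, g * z * g⁻¹ ∈ L)
    (H : ∀ N : Subgroup G, IsPGroup 2 N → N ≤ Fx ⊓ D → (∀ g ∈ Fx ⊓ D, ∀ z ∈ N, g * z * g⁻¹ ∈ N) → N = ⊥)
    {N : Subgroup G} (hNp : IsPGroup 2 N) (hNL : N ≤ L ⊓ D) (hN : ∀ g ∈ L ⊓ D, ∀ z ∈ N, g * z * g⁻¹ ∈ N) :
    N = ⊥ := by
  have h1 : ∀ g ∈ Fx ⊓ D, (L ⊓ D).map (MulAut.conj g).toMonoidHom = L ⊓ D := by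
    intro g hg
    refine Subgroup.eq_of_le_of_card_ge ?_ ?_
    · rintro _ ⟨z, hz, rfl⟩
      show g * z * g⁻¹ ∈ L ⊓ D
      exact ⟨hn g hg.1 z hz.1, D.mul_mem (D.mul_mem hg.2 hz.2) (D.inv_mem hg.2)⟩
    · rw [Subgroup.card_map_of_injective (MulEquiv.injective _)]
  have h2 : O2 (L ⊓ D) = ⊥ := by
    apply H _ (isPGroup_O2 _)
    · exact (O2_le _).trans (inf_le_inf_right D hL)
    · intro g hg z hz
      have h3 := mem_O2_conj g hz
      rwa [h1 g hg] at h3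
  rw [eq_bot_iff, ← h2]
  intro z hz
  rw [mem_O2_iff]
  refine ⟨N, hNL, fun g hg => ?_, hNp, hz⟩
  rw [Subgroup.mem_normalizer_iff]
  intro y
  refine ⟨hN g hg y, fun hy => ?_⟩
  have h3 := hN g⁻¹ (inv_mem hg) _ hy
  have h4 : g⁻¹ * (g * y * g⁻¹) * g⁻¹⁻¹ = y := by group
  rwa [h4] at h3

variable {I W Y K : Type*} [Fintype I] [DecidableEq I] [Group W] [Group Y] [Field K] {M : CoxeterMatrix I}
variable {cs : CoxeterSystem M W} {A : I → I → ℤ} {h : IsCartan M A} {e : (I → ℤ) → K → Y}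
  {p : ℕ} {T : Subgroup Y} {n : I → Y} {X : (I → ℤ) → Subgroup Y}

/-- the twisted Frobenius automorphism -/
structure TwF (cs : CoxeterSystem M W) (h : IsCartan M A) (e : (I → ℤ) → K → Y) (F : MulAut Y) (σ : I → I)
    (φ : K →+* K) : Prop where
  invol : ∀ i, σ (σ i) = i
  cart : ∀ i j, A (σ i) (σ j) = A i j
  map : ∀ x, IsRoot cs h x → ∀ a, F (e x a) = e (fun i => x (σ i)) (φ a)
  phi : ∀ a, φ (φ a) = a

theorem neg_comp {σ : I → I} (hσ : ∀ i, σ (σ i) = i) (j : I) : (fun k => (-sr j : I → ℤ) (σ k)) = -sr (σ j) := by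
  rw [← sr_comp hσ]; rfl

section

variable [Finite W] {R : RGD cs h p T n X} (S : Sys R e) {F : MulAut Y} {σ : I → I} {φ : K →+* K}
  (hF : TwF cs h e F σ φ)

include hF

theorem TwF.root {x : I → ℤ} (hx : IsRoot cs h x) : IsRoot cs h (fun k => x (σ k)) := by
  obtain ⟨w, i, rfl⟩ := hx
  obtain ⟨ω, rfl⟩ := cs.wordProd_surjective w
  rw [← rep_comp hF.invol hF.cart, sr_comp hF.invol]
  exact (isRoot_sr cs h _).act _

theorem TwF.nc (j : I) (c : K) : F (nc e (sr j) c) = nc e (sr (σ j)) (φ c) := by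
  rw [nc_def, nc_def, map_mul, map_mul, hF.map _ (isRoot_sr cs h j), hF.map _ (isRoot_sr cs h j).neg,
    sr_comp hF.invol, neg_comp hF.invol, map_inv₀]

theorem TwF.nel (j : I) : F (nel e (sr j)) = nel e (sr (σ j)) := by
  have h1 := hF.nc j 1
  rwa [map_one] at h1

theorem TwF.hel (j : I) (c : K) : F (hel e (sr j) c) = hel e (sr (σ j)) (φ c) := by
  rw [hel_def, hel_def, map_mul, hF.nc, hF.nel]

include S in
theorem TwF.map_T (hG1 : RGD.Sup X {x | IsRoot cs h x} = ⊤) {t : Y} (ht : t ∈ T) : F t ∈ T := by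
  refine mem_T_of_norm S hG1 fun r hr => ?_
  obtain ⟨χ, hχ⟩ := S.chi t ht
  refine ⟨φ ((χ (fun k => r (σ k))).toMul : Kˣ), (map_ne_zero φ).2 (Units.ne_zero _), fun a => ?_⟩
  have h1 := congrArg F (hχ _ (hF.root hr) (φ a))
  have h2 : (fun k => (fun k => r (σ k)) (σ k)) = r := by
    funext k
    show r (σ (σ k)) = r k
    rw [hF.invol]
  rw [map_mul, map_mul, map_inv, hF.map _ (hF.root hr), hF.map _ (hF.root hr), h2, hF.phi, map_mul, hF.phi] at h1
  exact h1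

include S in
theorem TwF.frA (hG1 : RGD.Sup X {x | IsRoot cs h x} = ⊤) : FrA R F (fun x k => x (σ k)) (th cs σ) where
  root _ ha := hF.root ha
  map a ha z hz := by
    obtain ⟨c, rfl⟩ := (S.mem_X a ha z).1 hz
    rw [hF.map a ha]
    exact S.mem (hF.root ha) _
  rp w k hk := by
    obtain ⟨ω, hω, h1⟩ := th_spec (cs := cs) σ w
    rw [h1]
    subst hω
    have key : ∀ ω : List I, Rp cs R.nsys (cs.wordProd ω) (pr ω fun j => KFacts.ChevTwo.nel e (sr j)) ∧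
        F (pr ω fun j => KFacts.ChevTwo.nel e (sr j)) = pr (ω.map σ) fun j => KFacts.ChevTwo.nel e (sr j) := by
      intro ω
      refine ⟨nJ_rp S ω, ?_⟩
      unfold pr
      rw [map_list_prod, List.map_map, List.map_map]
      congr 1
      exact List.map_congr_left fun j _ => hF.nel j
    obtain ⟨h2, h3⟩ := key ω
    have h4 : k = (pr ω fun j => KFacts.ChevTwo.nel e (sr j)) * ((pr ω fun j => KFacts.ChevTwo.nel e (sr j))⁻¹ * k) := by
      group
    rw [h4, map_mul, h3]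
    exact (nJ_rp S (ω.map σ)).mul_mem_right (hF.map_T S hG1 (h2.unique hk))
  rep' w a ha := by
    obtain ⟨ω, hω, h1⟩ := th_spec (cs := cs) σ w
    rw [h1, rep_comp hF.invol hF.cart, hω]
  neg a := rfl

include S in
/-- `F` has order 2 -/
theorem TwF.sq (hG1 : RGD.Sup X {x | IsRoot cs h x} = ⊤) (z : Y) : F (F z) = z := by
  have h1 : (RGD.Sup X {x | IsRoot cs h x}) ≤ FixA (F * F) := by
    refine RGD.Sup_le fun y hy u hu => ?_
    obtain ⟨c, rfl⟩ := (S.mem_X y hy u).1 hu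
    show F (F (e y c)) = e y c
    rw [hF.map y hy, hF.map _ (hF.root hy), hF.phi]
    congr 1
    funext k
    show y (σ (σ k)) = y k
    rw [hF.invol]
  rw [hG1] at h1
  exact h1 (Subgroup.mem_top z)

include S in
theorem TwF.pr {J : List I} (hJ : Orth cs h J) (hJσ : (J.map σ).Perm J) {f g : I → Y} (hf : ∀ j ∈ J, f j ∈ SS X j)
    (hg : ∀ j ∈ J, g j ∈ SS X j) (hfγ : ∀ j, F (f j) = g (σ j)) : F (pr J f) = pr J g := by
  have h1 : F (H737.SK.Gen.pr J f) = H737.SK.Gen.pr (J.map σ) g := by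
    unfold H737.SK.Gen.pr
    rw [map_list_prod, List.map_map, List.map_map]
    congr 1
    exact List.map_congr_left fun j _ => hfγ j
  rw [h1]
  exact pr_perm hJσ (commL S hJ hg hg)

include S in
/-- `F` commutes with graph automorphisms -/
theorem TwF.comm (hG1 : RGD.Sup X {x | IsRoot cs h x} = ⊤) {γ : MulAut Y} {σ' : I → I} (hγ : Gra cs h e γ σ')
    (hσ : ∀ i, σ (σ' i) = σ' (σ i)) (z : Y) : F (γ z) = γ (F z) := by
  have h1 : (RGD.Sup X {x | IsRoot cs h x}) ≤ FixA ((γ * F)⁻¹ * (F * γ)) := by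
    refine RGD.Sup_le fun y hy u hu => ?_
    obtain ⟨c, rfl⟩ := (S.mem_X y hy u).1 hu
    have h2 : (F * γ) (e y c) = (γ * F) (e y c) := by
      show F (γ (e y c)) = γ (F (e y c))
      rw [hγ.map y hy, hF.map _ (hγ.root hy), hF.map y hy, hγ.map _ (hF.root hy)]
      congr 1
      funext k
      show y (σ' (σ k)) = y (σ (σ' k))
      rw [hσ]
    show (γ * F)⁻¹ ((F * γ) (e y c)) = e y c
    rw [h2, MulAut.inv_apply_self]
  rw [hG1] at h1
  have h2 : (γ * F)⁻¹ ((F * γ) z) = z := h1 (Subgroup.mem_top z)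
  have h3 := congrArg (γ * F) h2
  rwa [MulAut.apply_inv_self] at h3

end

/-! ### Admissibility -/

section

variable [Finite W] [Finite Y] [Finite K] {R : RGD cs h 2 T n X} (S : Sys R e) {J : List I} (hJ : Orth cs h J)
  (hG1 : RGD.Sup X {x | IsRoot cs h x} = ⊤) (hN : NoCent cs h T X) {F : MulAut Y} {σ : I → I} {φ : K →+* K}
  (hF : TwF cs h e F σ φ) (hJσ : (J.map σ).Perm J) {γ : MulAut Y} {σ' : I → I} (hγ : Gra cs h e γ σ')
  (hJσ' : (J.map σ').Perm J) (hσ : ∀ i, σ (σ' i) = σ' (σ i))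

include S hJ hG1 hN hF hJσ hγ hJσ' hσ

/-- **`q ≥ 4`: `Fix F ∩ C(nJ) ∩ C(tJ) ∩ Fix γ` has no nontrivial normal 2-subgroup.** -/
theorem o2_tw_big {l : ℕ} (hl : l.Prime)
    (hl2 : l ≠ 2) {c : K} (hc : c ≠ 0) (hc1 : c ≠ 1) (hcl : c ^ l = 1) (hφc : φ c = c) {N : Subgroup Y}
    (hNp : IsPGroup 2 N)
    (hNH : N ≤ FixA F ⊓ (Subgroup.centralizer {pr J fun j => nel e (sr j)} ⊓
      Subgroup.centralizer {pr J fun j => hel e (sr j) c} ⊓ FixA γ))
    (hn : ∀ g ∈ FixA F ⊓ (Subgroup.centralizer {pr J fun j => nel e (sr j)} ⊓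
      Subgroup.centralizer {pr J fun j => hel e (sr j) c} ⊓ FixA γ), ∀ z ∈ N, g * z * g⁻¹ ∈ N) : N = ⊥ := by
  have : Fact (Nat.Prime 2) := ⟨Nat.prime_two⟩
  have C := coords S hG1
  have htT := tJ_mem S hG1 hc J
  have hc2 : c ^ (2 : ℤ) ≠ 1 := by
    intro h0
    have h1 : c ^ 2 = 1 := by exact_mod_cast h0
    exact hc1 (orderOf_eq_one_iff.1 (Nat.eq_one_of_dvd_coprimes ((Nat.coprime_primes hl Nat.prime_two).2 hl2)
      (orderOf_dvd_of_pow_eq_one hcl) (orderOf_dvd_of_pow_eq_one h1)))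
  have hγv : γ (pr J fun j => nel e (sr j)) = pr J fun j => nel e (sr j) :=
    hγ.pr S hJ hJσ' (fun j _ => nel_mem S j) fun j => hγ.nel j
  have hFv : F (pr J fun j => nel e (sr j)) = pr J fun j => nel e (sr j) :=
    hF.pr S hJ hJσ (fun j _ => nel_mem S j) (fun j _ => nel_mem S j) fun j => hF.nel j
  have hFt : F (pr J fun j => hel e (sr j) c) = pr J fun j => hel e (sr j) c :=
    hF.pr S hJ hJσ (fun j _ => hel_memS S j c) (fun j _ => hel_memS S j c) fun j => by rw [hF.hel, hφc]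
  have hA0 : Adm2 R (chS e) (pr J fun j => hel e (sr j) c)
      ((⊤ ⊓ FixA (MulAut.conj (pr J fun j => nel e (sr j)))) ⊓ FixA F) := by
    refine Adm2.fix C htT (hF.frA S hG1) (fun z hz => cent_of_inv (Or.inr hFt) hz) (fun a _ h0 k => h0 (σ k))
      (fun a _ h0 k => h0 (σ k)) (adm_v S hJ hG1 hN hc hc2) ?_ ⟨1, ?_⟩
    · intro z hz
      rw [mem_top_fix] at hz ⊢
      have h1 := congrArg F hz
      rwa [map_mul, map_mul, hFv] at h1
    · intro z _
      rw [pow_one, pow_two, MulAut.mul_apply, hF.sq S hG1]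
  have hA := adm_gra S hJ hG1 hN hγ hJσ' hc hA0 (by
    rintro z ⟨h1, h2⟩
    refine ⟨?_, ?_⟩
    · have h1' : z * (pr J fun j => nel e (sr j)) = (pr J fun j => nel e (sr j)) * z := mem_top_fix.1 h1
      have h3 := congrArg γ h1'
      rw [map_mul, map_mul, hγv] at h3
      exact mem_top_fix.2 h3
    · show F (γ z) = γ z
      rw [hF.comm S hG1 hγ hσ, (h2 : F z = z)])
  refine hA.eq_bot C htT (chAdd S) hl hl2 ?_ (GG_eq_top (T := T) hG1) hNp (fun z hz => ?_) ?_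
  · intro a ha
    rw [chi_tJ S hG1 ha hc, ← zpow_natCast, ← zpow_mul, mul_comm, zpow_mul, zpow_natCast, hcl, one_zpow]
  · obtain ⟨h1, ⟨h2, h3⟩, h4⟩ := hNH hz
    exact ⟨⟨⟨mem_top_fix.2 (Subgroup.mem_centralizer_singleton_iff.1 h2), h1⟩, h4⟩, h3⟩
  · rintro g ⟨⟨⟨h1, h2⟩, h3⟩, h4⟩ z hz
    exact hn g ⟨h2, ⟨Subgroup.mem_centralizer_singleton_iff.2 (mem_top_fix.1 h1), h4⟩, h3⟩ z hz

/-- **`q = 2`: `Fix F ∩ C(nJ) ∩ C(xJ) ∩ Fix γ` has no nontrivial normal 2-subgroup.** -/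
theorem o2_tw_two {ζ : K} (hζ : ζ ^ 2 = ζ + 1) (hφζ : φ ζ = ζ ^ 2) {N : Subgroup Y}
    (hNp : IsPGroup 2 N)
    (hNH : N ≤ FixA F ⊓ (Subgroup.centralizer {pr J fun j => nel e (sr j)} ⊓
      Subgroup.centralizer {pr J (xl e)} ⊓ FixA γ))
    (hn : ∀ g ∈ FixA F ⊓ (Subgroup.centralizer {pr J fun j => nel e (sr j)} ⊓
      Subgroup.centralizer {pr J (xl e)} ⊓ FixA γ), ∀ z ∈ N, g * z * g⁻¹ ∈ N) : N = ⊥ := by
  have : Fact (Nat.Prime 2) := ⟨Nat.prime_two⟩
  have hζ0 : ζ ≠ 0 := by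
    rintro rfl
    rw [zero_pow two_ne_zero, zero_add] at hζ
    exact zero_ne_one hζ
  have h2K : (2 : K) = 0 := by
    have := S.data.two (1 : K)
    rwa [one_add_one_eq_two] at this
  have hζ3 : ζ ^ 3 = 1 := by linear_combination (ζ + 1) * hζ + ζ * h2K
  have hζi : ζ ^ 2 = ζ⁻¹ := eq_inv_of_mul_eq_one_left (by linear_combination hζ3)
  have hc2 : ζ ^ (2 : ℤ) ≠ 1 := by
    intro h0
    have h1 : ζ ^ 2 = 1 := by exact_mod_cast h0
    exact hζ0 (by linear_combination h1 - hζ)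
  have hφζ2 : φ (ζ ^ 2) = ζ := by rw [← hφζ, hF.phi]
  have hal : ∀ j, F (al e ζ j) = al e ζ (σ j) * nel e (sr (σ j)) := by
    intro j
    rw [al_nel S hζ]
    unfold al
    rw [map_mul, map_mul, hF.map _ (isRoot_sr cs h j), hF.map _ (isRoot_sr cs h j).neg, sr_comp hF.invol,
      neg_comp hF.invol, map_one, hφζ2]
  set v : Y := pr J fun j => nel e (sr j) with hv
  set t : Y := pr J fun j => hel e (sr j) ζ with ht
  set a : Y := pr J (al e ζ) with ha
  set x : Y := pr J (xl e) with hx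
  have hFt : F t = t⁻¹ := by
    rw [ht, tJ_inv S hJ hG1 hN hζ0]
    exact hF.pr S hJ hJσ (fun j _ => hel_memS S j ζ) (fun j _ => hel_memS S j _) fun j => by
      rw [hF.hel, hφζ, hζi]
  have hFv : F v = v := hF.pr S hJ hJσ (fun j _ => nel_mem S j) (fun j _ => nel_mem S j) fun j => hF.nel j
  have hFa : F a = a * v := by
    rw [ha, hv, pr_mul hJ.nodup (commL S hJ (fun j _ => al_mem S ζ j) fun j _ => nel_mem S j)]
    exact hF.pr S hJ hJσ (fun j _ => al_mem S ζ j) (fun j _ => mul_mem (al_mem S ζ j) (nel_mem S j)) hal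
  have hγv : γ v = v := hγ.pr S hJ hJσ' (fun j _ => nel_mem S j) fun j => hγ.nel j
  have hγa : γ a = a := by
    refine hγ.pr S hJ hJσ' (fun j _ => al_mem S ζ j) fun j => ?_
    unfold al
    rw [map_mul, map_mul, hγ.map _ (isRoot_sr cs h j), hγ.map _ (isRoot_sr cs h j).neg, sr_comp hγ.invol,
      neg_comp hγ.invol]
  have ha2 : a * a = 1 := alJ_sq S hJ ζ
  have hv2 : v * v = 1 := nJ_sq S hJ
  have hav : a * v = v * a := alJ_nJ S hJ hζ
  have haxa : a * x * a = t := alJ_xlJ S hJ hG1 hN hζ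
  have hata : a * t * a = x := by
    rw [← haxa]
    calc a * (a * x * a) * a = (a * a) * x * (a * a) := by group
      _ = x := by rw [ha2, one_mul, mul_one]
  have C := coords S hG1
  have htT : t ∈ T := tJ_mem S hG1 hζ0 J
  have hB : Adm2 R (chS e) t ((⊤ ⊓ FixA (MulAut.conj v)) ⊓ FixA F) := by
    refine Adm2.fix C htT (hF.frA S hG1) (fun z hz => cent_of_inv (Or.inl hFt) hz) (fun a _ h0 k => h0 (σ k))
      (fun a _ h0 k => h0 (σ k)) (adm_v S hJ hG1 hN hζ0 hc2) ?_ ⟨1, ?_⟩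
    · intro z hz
      rw [mem_top_fix] at hz ⊢
      have h1 := congrArg F hz
      rwa [map_mul, map_mul, hFv] at h1
    · intro z _
      rw [pow_one, pow_two, MulAut.mul_apply, hF.sq S hG1]
  have hB' := adm_gra S hJ hG1 hN hγ hJσ' hζ0 hB (by
    rintro z ⟨h1, h2⟩
    refine ⟨?_, ?_⟩
    · have h1' : z * v = v * z := mem_top_fix.1 h1
      have h3 := congrArg γ h1'
      rw [map_mul, map_mul, hγv] at h3
      exact mem_top_fix.2 h3
    · show F (γ z) = γ z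
      rw [hF.comm S hG1 hγ hσ, (h2 : F z = z)])
  -- conjugation by `a`
  have key : ∀ z s, F z = z → z * v = v * z → z * s = s * z → γ z = z →
      F (a * z * a) = a * z * a ∧ (a * z * a) * v = v * (a * z * a) ∧
        (a * z * a) * (a * s * a) = (a * s * a) * (a * z * a) ∧ γ (a * z * a) = a * z * a := by
    intro z s h1 h2 h3 h4
    refine ⟨conj_fix hv2 hav hFa h1 h2, ?_, conj_comm ha2 h3, by rw [map_mul, map_mul, hγa, h4]⟩
    calc a * z * a * v = a * z * (a * v) := by group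
      _ = a * (z * v) * a := by rw [hav]; group
      _ = a * (v * z) * a := by rw [h2]
      _ = (a * v) * z * a := by group
      _ = v * (a * z * a) := by rw [hav]; group
  have hconj : ∀ z : Y, MulAut.conj a z = a * z * a := by
    intro z
    rw [MulAut.conj_apply, inv_eq_of_mul_eq_one_right ha2]
  have h0 : N.map (MulAut.conj a).toMonoidHom = ⊥ := by
    refine hB'.eq_bot C htT (chAdd S) Nat.prime_three (by norm_num) ?_ (GG_eq_top (T := T) hG1) (hNp.map _) ?_ ?_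
    · intro b hb
      rw [ht, chi_tJ S hG1 hb hζ0, ← zpow_natCast, ← zpow_mul, mul_comm, zpow_mul, zpow_natCast, hζ3, one_zpow]
    · rintro _ ⟨z, hz, rfl⟩
      obtain ⟨h1, ⟨h2, h3⟩, hg⟩ := hNH hz
      obtain ⟨h4, h5, h6, h7⟩ := key z x h1 (Subgroup.mem_centralizer_singleton_iff.1 h2)
        (Subgroup.mem_centralizer_singleton_iff.1 h3) hg
      rw [haxa] at h6
      show MulAut.conj a z ∈ _
      rw [hconj]
      exact ⟨⟨⟨mem_top_fix.2 h5, h4⟩, h7⟩, Subgroup.mem_centralizer_singleton_iff.2 h6⟩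
    · rintro g ⟨⟨⟨h1, h2⟩, h2'⟩, h3⟩ _ ⟨z, hz, rfl⟩
      have h1' : g * v = v * g := mem_top_fix.1 h1
      obtain ⟨h4, h5, h6, h6'⟩ := key g t h2 h1' (Subgroup.mem_centralizer_singleton_iff.1 h3) h2'
      rw [hata] at h6
      have h7 := hn (a * g * a) ⟨h4, ⟨Subgroup.mem_centralizer_singleton_iff.2 h5,
        Subgroup.mem_centralizer_singleton_iff.2 h6⟩, h6'⟩ z hz
      refine ⟨_, h7, ?_⟩
      show MulAut.conj a _ = g * MulAut.conj a z * g⁻¹
      have hai : a⁻¹ = a := inv_eq_of_mul_eq_one_right ha2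
      rw [hconj, hconj]
      calc a * (a * g * a * z * (a * g * a)⁻¹) * a = (a * a) * g * (a * z * a⁻¹) * g⁻¹ * (a⁻¹ * a) := by group
        _ = g * (a * z * a) * g⁻¹ := by rw [ha2, hai, ha2, one_mul, mul_one]
  rw [Subgroup.map_eq_bot_iff_of_injective _ (MulEquiv.injective _)] at h0
  exact h0

end

end Cfsg.Agent.H297.SK.Tw
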